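import Cfsg.Agent.H297.SK.Opp
import Cfsg.Agent.OddHalf.D4.StarESix

/-!
# Root group data with the Chevalley commutator formula: centralisers of root elements of dominant roots (helper282)

`Dm S a` : `a` is a dominant root, `S ∋ a` a set of positive roots such that `⟨X S⟩` and `⟨X (S \ {a})⟩` are normal in
`U`, and `a` is the only root of its orbit in `S`. `mem_PJ_of_conj` : `g z g⁻¹ ∈ X a`, `1 ≠ z ∈ X a` imply
`g ∈ P_J`, `J` the simple roots orthogonal to `a`.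
-/

set_option autoImplicit false
set_option linter.unusedSectionVars false

namespace Cfsg.Agent.H282.SK.Dom

open CoxeterSystem Cfsg.Agent.ChevalleyStructure.CoxeterGeom Cfsg.Agent.Tits.Core
  Cfsg.Agent.Tits.RootComb Cfsg.Agent.Tits.Exchange Cfsg.Agent.Nodes.Reps Cfsg.Agent.Nodes.BNOf
  Cfsg.Agent.Nodes.StabComb Cfsg.Agent.Nodes.Bruhat Cfsg.Agent.Nodes.OppDec Cfsg.Agent.Nodes.LeviDec
  Cfsg.Agent.Nodes.NormX Cfsg.Agent.Nodes.Coroot Cfsg.Agent.KFacts.RgdFilt Cfsg.Agent.KFacts.RgdBorelTits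
  Cfsg.Agent.OddHalf.D4.StarLoc
open Cfsg.Agent.Tits.Roots hiding ht
open scoped commutatorElement

variable {I W Y : Type*} [Fintype I] [DecidableEq I] [Group W] [Group Y] {M : CoxeterMatrix I}
  {cs : CoxeterSystem M W} {A : I → I → ℤ} {h : IsCartan M A} {p : ℕ} {T : Subgroup Y} {n : I → Y}
  {X : (I → ℤ) → Subgroup Y}

/-- a dominant root with its upper set -/
structure Dm (cs : CoxeterSystem M W) (h : IsCartan M A) (S : Set (I → ℤ)) (a : I → ℤ) : Prop where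
  pos : S ⊆ RGD.Pos cs h
  mem : a ∈ S
  up : ∀ x ∈ RGD.Pos cs h, ∀ y ∈ S, x ≠ y → ∀ z, IB cs h x y z → z ∈ S ∧ z ≠ a
  orb : ∀ w : W, rep cs h w a ∈ S → rep cs h w a = a
  dom : Dom A a

section

variable (R : RGD cs h p T n X) (hI : IntComm cs h X)

include R hI

/-- `B` normalises `⟨X S⟩` if `S` is closed upwards -/
theorem B_le_normalizer {S : Set (I → ℤ)} (hS : S ⊆ RGD.Pos cs h)
    (hup : ∀ x ∈ RGD.Pos cs h, ∀ y ∈ S, x ≠ y → ∀ z, IB cs h x y z → z ∈ S) :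
    RGD.B cs h T X ≤ Subgroup.normalizer (RGD.Sup X S : Set Y) := by
  refine sup_le (R.T_le_normalizer fun x hx => (hS hx).1) (RGD.Sup_le fun x hx => ?_)
  refine Cfsg.Agent.H297.SK.Opp.le_normalizer_of_conj fun a ha z hz => ?_
  -- `a ∈ X x` conjugates the generators into `Sup X S`
  have key : RGD.Sup X S ≤ (RGD.Sup X S).comap (MulAut.conj a).toMonoidHom := by
    refine RGD.Sup_le fun y hy => ?_
    intro b hb
    show a * b * a⁻¹ ∈ RGD.Sup X S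
    by_cases hxy : x = y
    · subst hxy
      exact RGD.le_Sup hy (mul_mem (mul_mem ha hb) (inv_mem ha))
    · have h1 := hI x y hx.1 (hS hy).1 hxy (ne_neg hx (hS hy)) a ha b hb
      have h2 : ⁅a, b⁆ ∈ RGD.Sup X S :=
        (FS_le fun z hz => RGD.le_Sup (hup x hx y hy hxy z hz) : FS X {z | IB cs h x y z} ≤ RGD.Sup X S) h1
      have h3 : a * b * a⁻¹ = ⁅a, b⁆ * b := by rw [commutatorElement_def]; group
      rw [h3]
      exact mul_mem h2 (RGD.le_Sup hy hb)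
  exact key hz

theorem mem_PJ_of_conj [Finite W] (hG : GG cs h T X = ⊤) {S : Set (I → ℤ)} {a : I → ℤ} (D : Dm cs h S a) {g z : Y}
    (hz : z ∈ X a) (hz1 : z ≠ 1) (hgz : g * z * g⁻¹ ∈ X a) : g ∈ PJ cs h T X (orth cs h a) := by
  have hclS : Cl cs h S := ⟨D.pos, fun x hx y hy hxy z hz => (D.up x (D.pos hx) y hy hxy z hz).1⟩
  have hBS := B_le_normalizer R hI D.pos fun x hx y hy hxy z hz => (D.up x hx y hy hxy z hz).1
  have hBS' := B_le_normalizer R hI (S := S \ {a}) (Set.sdiff_subset.trans D.pos)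
    fun x hx y hy hxy z hz => (D.up x hx y hy.1 hxy z hz)
  obtain ⟨w, b₁, hb₁, k, hk, b₂, hb₂, e⟩ := (mem_GG R).1 (hG ▸ Subgroup.mem_top g)
  have hcell : Cell R.nsys cs h X w g := ⟨b₁, hb₁, k, hk, b₂, hb₂, e⟩
  rw [cell_mem_PJ_iff R hcell]
  apply mem_WJ_of_rep D.dom
  apply D.orb
  set y : Y := b₂ * z * b₂⁻¹ with hy
  have hyS : y ∈ RGD.Sup X S := (Subgroup.mem_normalizer_iff.1 (hBS hb₂) z).1 (RGD.le_Sup D.mem hz)
  have hkS : k * y * k⁻¹ ∈ RGD.Sup X S := by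
    have h1 := (Subgroup.mem_normalizer_iff.1 (hBS (inv_mem hb₁)) _).1 (RGD.le_Sup D.mem hgz)
    have h2 : b₁⁻¹ * (g * z * g⁻¹) * b₁⁻¹⁻¹ = k * y * k⁻¹ := by rw [e, hy]; group
    rwa [h2] at h1
  -- `y ∈ Sup X (S ∩ PW w)`
  have h1 : y ∈ RGD.Sup X (PW cs h w) := by
    have h2 := mem_PW_of_conj R (w := w⁻¹) (k := k⁻¹) hk.inv (RGD.Sup_mono D.pos hyS) (by
      rw [inv_inv]
      exact RGD.U_le_B (RGD.Sup_mono D.pos hkS))
    rwa [inv_inv] at h2
  have hclP : Cl cs h (PW cs h w) := by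
    refine ⟨fun x hx => ⟨hx.1, hx.2.1⟩, fun x hx y hy _ z hz => ?_⟩
    exact ⟨hz.1, btwn_nonneg hz.btwn hx.2.1 hy.2.1, btwn_nonneg (hz.btwn.act w) hx.2.2 hy.2.2⟩
  have h2 : y ∈ RGD.Sup X (S ∩ PW cs h w) := hclS.inf R hI hclP ⟨hyS, h1⟩
  -- `k y k⁻¹ ∈ Sup X (w (S ∩ PW w))`
  have h3 : k * y * k⁻¹ ∈ RGD.Sup X ((fun x => rep cs h w x) '' (S ∩ PW cs h w)) :=
    conj_mem_Sup R hk (S := S ∩ PW cs h w) (fun x hx => (D.pos hx.1).1) (fun x hx => Set.mem_image_of_mem _ hx) h2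
  have hcl3 : Cl cs h ((fun x => rep cs h w x) '' (S ∩ PW cs h w)) := by
    constructor
    · rintro _ ⟨x, hx, rfl⟩
      exact ⟨hx.2.1.act w, hx.2.2.2⟩
    · rintro _ ⟨x, hx, rfl⟩ _ ⟨y, hy, rfl⟩ hxy z ⟨hzr, i, j, hi, hj, rfl⟩
      have hxy' : x ≠ y := fun e0 => hxy (by rw [e0])
      have e1 : rep cs h w (i • x + j • y) = i • rep cs h w x + j • rep cs h w y := by
        rw [map_add, map_smul, map_smul]
      have h4 : IB cs h x y (i • x + j • y) := by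
        refine ⟨?_, i, j, hi, hj, rfl⟩
        have h5 := hzr.act w⁻¹
        rwa [← e1, rep_inv_apply] at h5
      exact ⟨i • x + j • y, ⟨hclS.2 x hx.1 y hy.1 hxy' _ h4, hclP.2 x hx.2 y hy.2 hxy' _ h4⟩, e1⟩
  have h4 : k * y * k⁻¹ ∈ RGD.Sup X (S ∩ (fun x => rep cs h w x) '' (S ∩ PW cs h w)) :=
    hclS.inf R hI hcl3 ⟨hkS, h3⟩
  by_contra hcon
  -- then `y ∈ Sup X (S \ {a})`
  have h5 : y ∈ RGD.Sup X (S \ {a}) := by
    have h6 := conj_mem_Sup' R hk (S' := S \ {a})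
      (S := S ∩ (fun x => rep cs h w x) '' (S ∩ PW cs h w)) (fun x hx => (D.pos hx.1).1) (by
        rintro _ ⟨hx1, x, hx, rfl⟩
        show rep cs h w⁻¹ (rep cs h w x) ∈ S \ {a}
        rw [rep_inv_apply]
        refine ⟨hx.1, fun hxa => hcon ?_⟩
        have hxa' : x = a := hxa
        rw [← hxa']
        exact hx1) h4
    have e2 : k⁻¹ * (k * y * k⁻¹) * k = y := by group
    rwa [e2] at h6
  have h6 : z ∈ RGD.Sup X (S \ {a}) := by
    have h7 := (Subgroup.mem_normalizer_iff.1 (hBS' (inv_mem hb₂)) y).1 h5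
    have e2 : b₂⁻¹ * y * b₂⁻¹⁻¹ = z := by rw [hy]; group
    rwa [e2] at h7
  have hcl' : Cl cs h (S \ {a}) := ⟨Set.sdiff_subset.trans D.pos,
    fun x hx y hy hxy z hz => D.up x (D.pos hx.1) y hy.1 hxy z hz⟩
  have hcla : Cl cs h ({a} : Set (I → ℤ)) := by
    refine ⟨Set.singleton_subset_iff.2 (D.pos D.mem), ?_⟩
    rintro x hx y hy hxy
    exact absurd ((Set.mem_singleton_iff.1 hx).trans (Set.mem_singleton_iff.1 hy).symm) hxy
  have h7 := hcla.inf R hI hcl' ⟨RGD.le_Sup (S := {a}) rfl hz, h6⟩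
  have h8 : ({a} : Set (I → ℤ)) ∩ (S \ {a}) = ∅ := by
    ext z
    simp only [Set.mem_inter_iff, Set.mem_singleton_iff, Set.mem_sdiff, Set.mem_empty_iff_false, iff_false]
    rintro ⟨rfl, -, h⟩
    exact h rfl
  rw [h8, Sup_empty, Subgroup.mem_bot] at h7
  exact hz1 h7

end

end Cfsg.Agent.H282.SK.Dom
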