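import Cfsg.Agent.H282.SK.Tools

/-!
# S3010 (Sidki pairs): good involutions (helper282, specification of helper737)
-/

set_option autoImplicit false
set_option linter.unusedVariables false

universe u v

open Subgroup Cfsg

namespace Cfsg.Agent.H282.SK

/-- `Good v`: some `x` of odd order inverted by `v` is such that `C = C_Y(⟨v, x⟩)` has no nontrivial normal
2-subgroup and the only automorphisms of order 2 of `Y` fixing `v`, `x` and `C` elementwise are inner. -/
def Good {Y : Type*} [Group Y] (v : Y) : Prop :=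
  ∃ x : Y, Odd (orderOf x) ∧ v * x * v⁻¹ = x⁻¹ ∧
    (∀ N : Subgroup Y, IsPGroup 2 N → N ≤ centralizer {v} ⊓ centralizer {x} →
      (∀ g ∈ (centralizer {v} ⊓ centralizer {x} : Subgroup Y), ∀ z ∈ N, g * z * g⁻¹ ∈ N) → N = ⊥) ∧
    (∀ α : MulAut Y, α * α = 1 → α v = v → α x = x →
      (∀ c ∈ (centralizer {v} ⊓ centralizer {x} : Subgroup Y), α c = c) → ∃ g, α = MulAut.conj g)

/-- The same for an arbitrary automorphism `α₀`. -/
def GoodA {Y : Type*} [Group Y] (α₀ : MulAut Y) : Prop :=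
  ∃ x : Y, Odd (orderOf x) ∧ α₀ x = x⁻¹ ∧
    (∀ N : Subgroup Y, IsPGroup 2 N → (∀ c ∈ N, α₀ c = c ∧ c * x = x * c) →
      (∀ g, α₀ g = g → g * x = x * g → ∀ z ∈ N, g * z * g⁻¹ ∈ N) → N = ⊥) ∧
    (∀ α : MulAut Y, α * α = 1 → α * α₀ = α₀ * α → α x = x →
      (∀ c, α₀ c = c → c * x = x * c → α c = c) → ∃ g, α = MulAut.conj g)

theorem mem_cc {Y : Type*} [Group Y] {v x c : Y} :
    c ∈ (centralizer {v} ⊓ centralizer {x} : Subgroup Y) ↔ c * v = v * c ∧ c * x = x * c := by
  rw [mem_inf, mem_centralizer_singleton_iff, mem_centralizer_singleton_iff]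

/-- transport of `Good` along an isomorphism -/
theorem Good.map {Y : Type*} {Z : Type*} [Group Y] [Group Z] (f : Y ≃* Z) {v : Y} (h : Good v) : Good (f v) := by
  obtain ⟨x, hx, hi, hN, hA⟩ := h
  refine ⟨f x, by rwa [MulEquiv.orderOf_eq], by rw [← map_inv, ← map_mul, ← map_mul, hi, map_inv], ?_, ?_⟩
  · intro N hNp hNc hNn
    have h1 : N.comap f.toMonoidHom = ⊥ := by
      apply hN
      · exact hNp.comap_of_injective _ f.injective
      · intro c hc
        obtain ⟨h2, h3⟩ := mem_cc.1 (hNc (show f c ∈ N from hc))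
        refine mem_cc.2 ⟨f.injective ?_, f.injective ?_⟩
        · rw [map_mul, map_mul]; exact h2
        · rw [map_mul, map_mul]; exact h3
      · intro g hg z hz
        obtain ⟨h2, h3⟩ := mem_cc.1 hg
        show f (g * z * g⁻¹) ∈ N
        rw [map_mul, map_mul, map_inv]
        refine hNn (f g) (mem_cc.2 ⟨?_, ?_⟩) (f z) hz
        · rw [← map_mul, ← map_mul, h2]
        · rw [← map_mul, ← map_mul, h3]
    rw [eq_bot_iff]
    intro z hz
    have h4 : f.symm z ∈ N.comap f.toMonoidHom := by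
      show f (f.symm z) ∈ N
      rwa [MulEquiv.apply_symm_apply]
    rw [h1, mem_bot] at h4
    rw [mem_bot]
    have := congrArg f h4
    simpa using this
  · intro α hα hv hx' hc
    obtain ⟨g, hg⟩ := hA ((MulAut.congr f).symm α) (by rw [← map_mul, hα, map_one])
      (by
        apply f.injective
        simp only [MulAut.congr_symm_apply, MulEquiv.trans_apply, MulEquiv.apply_symm_apply]
        exact hv)
      (by
        apply f.injective
        simp only [MulAut.congr_symm_apply, MulEquiv.trans_apply, MulEquiv.apply_symm_apply]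
        exact hx')
      (by
        intro c hc'
        obtain ⟨h2, h3⟩ := mem_cc.1 hc'
        apply f.injective
        simp only [MulAut.congr_symm_apply, MulEquiv.trans_apply, MulEquiv.apply_symm_apply]
        apply hc
        refine mem_cc.2 ⟨?_, ?_⟩
        · rw [← map_mul, ← map_mul, h2]
        · rw [← map_mul, ← map_mul, h3])
    refine ⟨f g, ?_⟩
    have h5 : α = MulAut.congr f (MulAut.conj g) := by
      rw [← hg, MulEquiv.apply_symm_apply]
    rw [h5]
    apply MulEquiv.ext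
    intro z
    simp only [MulAut.congr_apply, MulEquiv.trans_apply, MulAut.conj_apply, map_mul, map_inv,
      MulEquiv.apply_symm_apply]

theorem Good.conj {Y : Type*} [Group Y] {v : Y} (h : Good v) (g : Y) : Good (g * v * g⁻¹) := by
  have := h.map (MulAut.conj g)
  simpa using this

theorem Good.of_isConj {Y : Type*} [Group Y] {v w : Y} (h : Good v) (hc : IsConj v w) : Good w := by
  obtain ⟨g, rfl⟩ := isConj_iff.1 hc
  exact h.conj g

theorem good_iff_map {Y : Type*} {Z : Type*} [Group Y] [Group Z] (f : Y ≃* Z) {v : Y} : Good (f v) ↔ Good v :=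
  ⟨fun h => by simpa using h.map f.symm, fun h => h.map f⟩

/-- `Good v → GoodA (conj v)` if the centre is trivial -/
theorem Good.toA {Y : Type*} [Group Y] (hZ : ∀ z : Y, (∀ y : Y, z * y = y * z) → z = 1) {v : Y} (h : Good v) :
    GoodA (MulAut.conj v) := by
  obtain ⟨x, hx, hi, hN, hA⟩ := h
  have key : ∀ c : Y, MulAut.conj v c = c ↔ c * v = v * c := by
    intro c
    rw [MulAut.conj_apply, mul_inv_eq_iff_eq_mul]
    exact eq_comm
  refine ⟨x, hx, by rw [MulAut.conj_apply]; exact hi, ?_, ?_⟩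
  · intro N hNp hNc hNn
    apply hN N hNp
    · intro c hc
      obtain ⟨h1, h2⟩ := hNc c hc
      exact mem_cc.2 ⟨(key c).1 h1, h2⟩
    · intro g hg z hz
      obtain ⟨h1, h2⟩ := mem_cc.1 hg
      exact hNn g ((key g).2 h1) h2 z hz
  · intro α hα hc hx' hcc
    apply hA α hα _ hx'
    · intro c hc'
      obtain ⟨h1, h2⟩ := mem_cc.1 hc'
      exact hcc c ((key c).2 h1) h2
    · have h1 : v⁻¹ * α v = 1 := by
        apply hZ
        intro y
        have h2 : α (v * (α.symm y) * v⁻¹) = v * y * v⁻¹ := by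
          have h3 := congrArg (fun β : MulAut Y => β (α.symm y)) hc
          simp only [MulAut.mul_apply, MulAut.conj_apply, MulEquiv.apply_symm_apply] at h3
          exact h3
        rw [map_mul, map_mul, map_inv, MulEquiv.apply_symm_apply] at h2
        calc v⁻¹ * α v * y = v⁻¹ * (α v * y * (α v)⁻¹) * α v := by group
          _ = v⁻¹ * (v * y * v⁻¹) * α v := by rw [h2]
          _ = y * (v⁻¹ * α v) := by group
      rw [inv_mul_eq_one] at h1
      exact h1.symm

namespace Cx

variable {G : Type u} [Group G] [Finite G] {V K : Subgroup G}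

/-- general form: `φ` is the action of `exists_toAut`. -/
theorem not_goodA (h : Cx V K) {Y : Type v} [Group Y] (e : K ≃* Y) (φ : G →* MulAut Y)
    (hφ : Function.Injective φ) (hφK : ∀ k : K, φ k = MulAut.conj (e k))
    (hφg : ∀ (g : G) (k : K), ∃ hgk : g * k * g⁻¹ ∈ K, φ g (e k) = e ⟨g * k * g⁻¹, hgk⟩)
    {w : G} (hw : w ∈ V) (hw1 : w ≠ 1) : ¬ GoodA (φ w) := by
  rintro ⟨x, hx, hi, hN, hA⟩
  -- `x` back in `K`
  set x' : K := e.symm x with hx'
  have hex : e x' = x := by rw [hx', MulEquiv.apply_symm_apply]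
  have hcomm : ∀ (g : G) (k : K), φ g (e k) = e k ↔ g * (k : G) = (k : G) * g := by
    intro g k
    obtain ⟨hgk, hg⟩ := hφg g k
    rw [hg]
    constructor
    · intro h1
      have h2 := congrArg Subtype.val (e.injective h1)
      simp only at h2
      rwa [mul_inv_eq_iff_eq_mul] at h2
    · intro h1
      congr 1
      apply Subtype.ext
      simp only
      rw [h1]; group
  have hxo : Odd (orderOf (x' : G)) := by
    rw [Subgroup.orderOf_coe, hx', MulEquiv.orderOf_eq]
    exact hx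
  have hinv : w * (x' : G) * w⁻¹ = (x' : G)⁻¹ := by
    obtain ⟨hgk, hg⟩ := hφg w x'
    rw [hex] at hg
    rw [hg, ← hex, ← map_inv] at hi
    exact congrArg Subtype.val (e.injective hi)
  obtain ⟨r, hrV, hr1, hrx, hrO⟩ := h.t1 hw hw1 hxo hinv
  set C : Subgroup G := centralizer ({w} : Set G) ⊓ centralizer ({(x' : G)} : Set G) with hC
  have hmemC : ∀ k : K, (k : G) ∈ C ↔ φ w (e k) = e k ∧ e k * x = x * e k := by
    intro k
    rw [hC, mem_cc, hcomm]
    constructor
    · rintro ⟨h1, h2⟩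
      refine ⟨h1.symm, ?_⟩
      rw [← hex, ← map_mul, ← map_mul]
      congr 1
      exact Subtype.ext h2
    · rintro ⟨h1, h2⟩
      refine ⟨h1.symm, ?_⟩
      rw [← hex, ← map_mul, ← map_mul] at h2
      exact congrArg Subtype.val (e.injective h2)
  -- `O_2(C) ∩ K = 1`
  have hOK : ∀ z ∈ O2 C, z ∈ K → z = 1 := by
    intro z hz hzK
    have h1 : ((O2 C).subgroupOf K).map e.toMonoidHom = ⊥ := by
      apply hN
      · refine IsPGroup.map ?_ _
        exact (isPGroup_O2 C).comap_of_injective K.subtype K.subtype_injective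
      · rintro _ ⟨k, hk, rfl⟩
        exact (hmemC k).1 (O2_le C hk)
      · rintro g hg1 hg2 _ ⟨k, hk, rfl⟩
        obtain ⟨g', rfl⟩ := e.surjective g
        have hg' : (g' : G) ∈ C := (hmemC g').2 ⟨hg1, hg2⟩
        refine ⟨g' * k * g'⁻¹, ?_, by simp⟩
        show ((g' * k * g'⁻¹ : K) : G) ∈ O2 C
        exact conj_mem_O2 hg' hk
    have h2 : e ⟨z, hzK⟩ ∈ ((O2 C).subgroupOf K).map e.toMonoidHom := ⟨⟨z, hzK⟩, hz, rfl⟩
    rw [h1, mem_bot] at h2
    have h3 : (⟨z, hzK⟩ : K) = 1 := e.injective (by rw [h2, map_one])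
    exact congrArg Subtype.val h3
  -- `r` is inner
  have hr2 : φ r * φ r = 1 := by rw [← map_mul, h.sq hrV, map_one]
  have hrc : φ r * φ w = φ w * φ r := by rw [← map_mul, ← map_mul, (h.comm hrV hw).eq]
  have hrx' : φ r x = x := by
    rw [← hex, hcomm]
    exact hrx.eq
  obtain ⟨g, hg⟩ := hA (φ r) hr2 hrc hrx' (by
    intro c hc1 hc2
    obtain ⟨k, rfl⟩ := e.surjective c
    rw [hcomm]
    have hkC : (k : G) ∈ C := (hmemC k).2 ⟨hc1, hc2⟩
    have key : ∀ κ : G, κ ∈ C → κ ∈ K → r * κ = κ * r := by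
      intro κ hκC hκK
      have h1 : r * κ * r⁻¹ * κ⁻¹ = 1 := by
        apply hOK
        · have e1 : r * κ * r⁻¹ * κ⁻¹ = r * (κ * r⁻¹ * κ⁻¹) := by group
          rw [e1]
          exact (O2 C).mul_mem hrO (conj_mem_O2 hκC ((O2 C).inv_mem hrO))
        · exact K.mul_mem (h.norm.conj_mem κ hκK r) (K.inv_mem hκK)
      rw [mul_inv_eq_one, mul_inv_eq_iff_eq_mul] at h1
      exact h1
    exact key k hkC k.2)
  obtain ⟨k, rfl⟩ := e.surjective g
  rw [← hφK] at hg
  have hrK : r = (k : G) := hφ hg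
  apply hr1
  exact hOK r hrO (hrK ▸ k.2)

/-- **No element of `V# ∩ K` is good.** -/
theorem not_good (h : Cx V K) {Y : Type v} [Group Y] (e : K ≃* Y) {w : G} (hw : w ∈ V) (hw1 : w ≠ 1)
    (hwK : w ∈ K) : ¬ Good (e ⟨w, hwK⟩) := by
  intro hg
  obtain ⟨φ, hφ, hφK, hφg⟩ := h.exists_toAut e
  apply h.not_goodA e φ hφ hφK hφg hw hw1
  have h1 : φ w = MulAut.conj (e ⟨w, hwK⟩) := hφK ⟨w, hwK⟩
  rw [h1]
  apply hg.toA
  intro z hz
  obtain ⟨k, rfl⟩ := e.surjective z
  have h2 : (k : G) = 1 := by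
    apply h.eq_one_of_comm
    intro y hy
    have h3 := hz (e ⟨y, hy⟩)
    rw [← map_mul, ← map_mul] at h3
    exact congrArg Subtype.val (e.injective h3)
  have h4 : k = 1 := Subtype.ext h2
  rw [h4, map_one]

/-- `V ∩ K ≠ 1` if elementary abelian 2-subgroups of `Aut Y` meeting `Inn Y` trivially have order at most 4. -/
theorem exists_mem_inf (h : Cx V K) {Y : Type v} [Group Y] (e : K ≃* Y)
    (hout : ∀ A : Subgroup (MulAut Y), IsElementaryAbelian 2 A → (∀ α ∈ A, (∃ g, α = MulAut.conj g) → α = 1) →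
      Nat.card A ≤ 4) : ∃ w ∈ V, w ≠ 1 ∧ w ∈ K := by
  obtain ⟨φ, hφ, hφK, hφg⟩ := h.exists_toAut e
  by_contra hcon
  push Not at hcon
  have h1 := hout (V.map φ) (H273.Sidki.elemAb_map h.elem φ) (by
    rintro _ ⟨w, hw, rfl⟩ ⟨g, hg⟩
    obtain ⟨k, rfl⟩ := e.surjective g
    rw [← hφK] at hg
    have hwk : w = (k : G) := hφ hg
    by_contra hw1
    apply hcon w hw (fun h2 => hw1 (by rw [h2, map_one]))
    rw [hwk]
    exact k.2)
  have h2 : Nat.card (V.map φ) = Nat.card V := Nat.card_congr (V.equivMapOfInjective φ hφ).toEquiv.symm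
  have h3 := h.card
  omega

end Cx

/-- **Rows from good involutions.** -/
theorem dead_of_good {Y : Type v} [Group Y] (hgood : ∀ y : Y, y ≠ 1 → y * y = 1 → Good y)
    (hout : ∀ A : Subgroup (MulAut Y), IsElementaryAbelian 2 A → (∀ α ∈ A, (∃ g, α = MulAut.conj g) → α = 1) →
      Nat.card A ≤ 4) : DeadS.{u} (fun K _ => Nonempty (K ≃* Y)) := by
  intro G _ _ V K h he
  obtain ⟨e⟩ := he
  obtain ⟨w, hw, hw1, hwK⟩ := h.exists_mem_inf e hout
  refine h.not_good e hw hw1 hwK (hgood _ ?_ ?_)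
  · intro h1
    apply hw1
    have : (⟨w, hwK⟩ : K) = 1 := e.injective (by rw [h1, map_one])
    exact congrArg Subtype.val this
  · rw [← map_mul]
    have : (⟨w, hwK⟩ : K) * ⟨w, hwK⟩ = 1 := Subtype.ext (h.sq hw)
    rw [this, map_one]

/-- The same with the hypothesis that `V ∩ K ≠ 1` holds for every counterexample. -/
theorem dead_of_good' {Y : Type v} [Group Y] (hgood : ∀ y : Y, y ≠ 1 → y * y = 1 → Good y)
    (hin : ∀ {G : Type u} [Group G] [Finite G] (V K : Subgroup G), Cx V K → Nonempty (K ≃* Y) →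
      ∃ w ∈ V, w ≠ 1 ∧ w ∈ K) : DeadS.{u} (fun K _ => Nonempty (K ≃* Y)) := by
  intro G _ _ V K h he
  obtain ⟨w, hw, hw1, hwK⟩ := hin V K h he
  obtain ⟨e⟩ := he
  refine h.not_good e hw hw1 hwK (hgood _ ?_ ?_)
  · intro h1
    apply hw1
    have : (⟨w, hwK⟩ : K) = 1 := e.injective (by rw [h1, map_one])
    exact congrArg Subtype.val this
  · rw [← map_mul]
    have : (⟨w, hwK⟩ : K) * ⟨w, hwK⟩ = 1 := Subtype.ext (h.sq hw)
    rw [this, map_one]

end Cfsg.Agent.H282.SK
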