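import Cfsg.Agent.H282.SK.Dom
import Cfsg.Agent.H282.SK.Good

/-!
# Good root elements of simple roots, by the opposite trick (helper282)
-/

set_option autoImplicit false
set_option linter.unusedSectionVars false

namespace Cfsg.Agent.H282.SK.Dom

open CoxeterSystem Cfsg.Agent.ChevalleyStructure.CoxeterGeom Cfsg.Agent.Tits.Core
  Cfsg.Agent.Tits.RootComb Cfsg.Agent.Tits.Exchange Cfsg.Agent.Nodes.Reps Cfsg.Agent.Nodes.BNOf
  Cfsg.Agent.Nodes.StabComb Cfsg.Agent.Nodes.Bruhat Cfsg.Agent.Nodes.OppDec Cfsg.Agent.Nodes.LeviDec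
  Cfsg.Agent.Nodes.NormX Cfsg.Agent.Nodes.Coroot Cfsg.Agent.KFacts.RgdFilt Cfsg.Agent.KFacts.RgdBorelTits
  Cfsg.Agent.OddHalf.D4.StarLoc Cfsg.Agent.H282.SK Cfsg.Agent.H297.SK.Opp
open Cfsg.Agent.Tits.Roots hiding ht
open scoped commutatorElement

variable {I W Y : Type*} [Fintype I] [DecidableEq I] [Group W] [Group Y] {M : CoxeterMatrix I}
  {cs : CoxeterSystem M W} {A : I → I → ℤ} {h : IsCartan M A} {p : ℕ} {T : Subgroup Y} {n : I → Y}
  {X : (I → ℤ) → Subgroup Y}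

/-- **Good involutions by the opposite trick** (only automorphisms of order two). -/
theorem good_opp' [Finite W] [Finite Y] (R : RGD cs h 2 T n X) (hG : GG cs h T X = ⊤) {J : Set I} {v n0 : Y} {w : W}
    (hn0 : Rp cs R.nsys w n0) (hw : ∀ x, IsRoot cs h x → 0 ≤ x → rep cs h w x ≤ 0)
    (hwJ : ∀ x ∈ RootsJ cs h J, rep cs h w x ∈ RootsJ cs h J) (hv2 : v * v = 1) {k : ℕ} (hk : Odd k)
    (hvk : (v * (n0⁻¹ * v * n0)) ^ k = 1) (hCv : ∀ g, g * v = v * g → g ∈ PJ cs h T X J)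
    (hJ : ∀ x ∈ RootsJ cs h J, ∀ g ∈ X x, g * v = v * g)
    (hin : ∀ α : MulAut Y, α * α = 1 → (∀ a ∈ RootsJ cs h J, ∀ z ∈ X a, α z = z) → ∃ g, α = MulAut.conj g) :
    Good v := by
  have : Fact (Nat.Prime 2) := ⟨Nat.prime_two⟩
  obtain ⟨v', hv'⟩ : ∃ v', v' = n0⁻¹ * v * n0 := ⟨_, rfl⟩
  have hv1 : v⁻¹ = v := inv_eq_of_mul_eq_one_right hv2
  have hv2' : v' * v' = 1 := by
    rw [hv']
    calc n0⁻¹ * v * n0 * (n0⁻¹ * v * n0) = n0⁻¹ * (v * v) * n0 := by group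
      _ = 1 := by rw [hv2]; group
  have hv1' : v'⁻¹ = v' := inv_eq_of_mul_eq_one_right hv2'
  have hJ' : ∀ x ∈ RootsJ cs h J, ∀ g ∈ X x, g * v' = v' * g := by
    intro x hx g hg
    have h1 := hJ _ (hwJ x hx) _ (R.conj_mem hn0 hx.1 hg)
    rw [hv']
    calc g * (n0⁻¹ * v * n0) = n0⁻¹ * ((n0 * g * n0⁻¹) * v) * n0 := by group
      _ = n0⁻¹ * (v * (n0 * g * n0⁻¹)) * n0 := by rw [h1]
      _ = _ := by group
  have hC : ∀ x ∈ RootsJ cs h J, ∀ g ∈ X x,
      g ∈ (Subgroup.centralizer {v} ⊓ Subgroup.centralizer {v * v'} : Subgroup Y) := by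
    intro x hx g hg
    have h1 := hJ x hx g hg
    have h2 := hJ' x hx g hg
    refine mem_cc.2 ⟨h1, ?_⟩
    rw [← mul_assoc, h1, mul_assoc, h2, mul_assoc]
  refine ⟨v * v', ?_, ?_, ?_, ?_⟩
  · rw [← hv'] at hvk
    exact hk.of_dvd_nat (orderOf_dvd_of_pow_eq_one hvk)
  · rw [mul_inv_rev, hv1, hv1', ← mul_assoc, hv2, one_mul]
  · intro N hNp hNc hNn
    have hNv : ∀ z ∈ N, z * v = v * z ∧ z * v' = v' * z := by
      intro z hz
      obtain ⟨h1, h2⟩ := mem_cc.1 (hNc hz)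
      refine ⟨h1, ?_⟩
      have h3 : v * (z * v') = v * (v' * z) := by
        calc v * (z * v') = (z * v) * v' := by rw [h1]; group
          _ = z * (v * v') := by group
          _ = (v * v') * z := h2
          _ = _ := by group
      exact mul_left_cancel h3
    refine eq_bot_of_opp R hG hNp hn0 hw hwJ (fun z hz => hCv z (hNv z hz).1) (fun z hz => hCv _ ?_)
      (fun x hx g hg z hz => hNn g (hC x hx g hg) z hz)
    have h1 := (hNv z hz).2
    rw [hv'] at h1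
    calc n0 * z * n0⁻¹ * v = n0 * (z * (n0⁻¹ * v * n0)) * n0⁻¹ := by group
      _ = n0 * (n0⁻¹ * v * n0 * z) * n0⁻¹ := by rw [h1]
      _ = _ := by group
  · intro α hα _ _ hc
    exact hin α hα fun a ha z hz => hc z (hC a ha z hz)

/-- The data of a node: `a = w (sr i)` is dominant, orthogonal to the simple root `sr j` only, and `-1 = s_j s_a`. -/
structure Node (R : RGD cs h p T n X) (S : Set (I → ℤ)) (a : I → ℤ) (i j : I) (w : W) : Prop where
  dm : Dm cs h S a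
  orth : orth cs h a = {j}
  comm : ∀ x ∈ RootsJ cs h {j}, ∀ g ∈ X x, ∀ z ∈ X a, g * z = z * g
  hw : rep cs h w (sr i) = a
  neg : ∀ x, rep cs h (cs.simple j * (w * cs.simple i * w⁻¹)) x = -x
  nj : n j ∈ X (sr j) ⊔ X (-sr j)

section

variable {R : RGD cs h p T n X} {S : Set (I → ℤ)} {a : I → ℤ} {i j : I} {w : W} (N : Node R S a i j w)

include N

theorem Node.neg_one [Finite W] {w' : W} (h' : ∀ x, rep cs h w' x = -x) {m : Y} (hm : Rp cs R.nsys w' m) {J : Set I} :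
    cj m (PJ cs h T X J) ≤ PNJ cs h T X J := by
  have h1 : cj m T = T := mem_normalizer_iff_cj.1 hm.mem_normalizer
  have h2 : cj m (LJ cs h T X J) ≤ LJ cs h T X J := by
    unfold LJ
    rw [cj_sup, h1]
    exact sup_le le_sup_left ((cj_Sup_le R hm (fun x hx => hx.1) fun x hx => by rw [h']; exact RootsJ.neg hx).trans le_sup_right)
  have h3 : cj m (VJ cs h X J) ≤ VNJ cs h X J :=
    cj_Sup_le R hm (S := NotJ cs h J) (S' := NotNJ cs h J) (fun x hx => hx.1) fun x hx => by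
      rw [h']
      show -(-x) ∈ NotJ cs h J
      rwa [neg_neg]
  unfold PJ PNJ
  rw [cj_sup]
  exact sup_le (h2.trans le_sup_left) (h3.trans le_sup_right)

/-- an element conjugating the root groups `X (± sr i)` like `F⁻¹` acts as a torus element -/
theorem Node.scalar [Finite W] (hI : IntComm cs h X) (hG : GG cs h T X = ⊤) {k m : Y} (hk : Rp cs R.nsys w k) {w' : W}
    (hm : Rp cs R.nsys w' m) (h' : ∀ x, rep cs h w' x = -x) {F : MulAut Y} (hFX : ∀ z ∈ X (sr i), F z ∈ X (sr i))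
    (hFm : F m = m) {g : Y} (h1 : ∀ z ∈ X (sr i), g * F z * g⁻¹ = z) (h2 : ∀ z ∈ X (-sr i), g * F z * g⁻¹ = z) :
    ∃ t ∈ T, ∀ z ∈ X (sr i), t * F z * t⁻¹ = z := by
  have hne := X_ne_bot R (isRoot_sr cs h i)
  rw [ne_eq, Subgroup.eq_bot_iff_forall] at hne
  push Not at hne
  obtain ⟨z, hz, hz1⟩ := hne
  have hXa : ∀ y ∈ X (sr i), k * y * k⁻¹ ∈ X a := by
    intro y hy
    have := R.conj_mem hk (isRoot_sr cs h i) hy
    rwa [N.hw] at this
  have key : ∀ g' : Y, g' * F z * g'⁻¹ = z → k * g' * k⁻¹ ∈ PJ cs h T X {j} := by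
    intro g' hg'
    have h3 : F z ≠ 1 := by
      rw [Ne, ← map_one F, F.injective.eq_iff]
      exact hz1
    have h4 : k * g' * k⁻¹ * (k * F z * k⁻¹) * (k * g' * k⁻¹)⁻¹ = k * z * k⁻¹ := by
      calc k * g' * k⁻¹ * (k * F z * k⁻¹) * (k * g' * k⁻¹)⁻¹ = k * (g' * F z * g'⁻¹) * k⁻¹ := by group
        _ = _ := by rw [hg']
    rw [← N.orth]
    refine mem_PJ_of_conj R hI hG N.dm (hXa _ (hFX z hz)) ?_ (by rw [h4]; exact hXa z hz)
    intro h5
    apply h3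
    have : F z = k⁻¹ * (k * F z * k⁻¹) * k := by group
    rw [this, h5]; group
  have e1 := key g (h1 z hz)
  have e2 := key (m⁻¹ * g * m) (by
    have h3 : m * z * m⁻¹ ∈ X (-sr i) := by
      have := R.conj_mem hm (isRoot_sr cs h i) hz
      rwa [h'] at this
    have h4 := h2 _ h3
    rw [map_mul, map_mul, map_inv, hFm] at h4
    calc m⁻¹ * g * m * F z * (m⁻¹ * g * m)⁻¹ = m⁻¹ * (g * (m * F z * m⁻¹) * g⁻¹) * m := by group
      _ = m⁻¹ * (m * z * m⁻¹) * m := by rw [h4]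
      _ = z := by group)
  have e3 : k * g * k⁻¹ ∈ PNJ cs h T X {j} := by
    have h3 : Rp cs R.nsys (w * w' * w⁻¹) (k * m * k⁻¹) := (hk.mul hm).mul hk.inv
    have h4 : ∀ x, rep cs h (w * w' * w⁻¹) x = -x := by
      intro x
      rw [rep_mul_apply, rep_mul_apply, h', map_neg, rep_apply_inv]
    refine N.neg_one h4 h3 ?_
    rw [mem_cj]
    have : (k * m * k⁻¹)⁻¹ * (k * g * k⁻¹) * (k * m * k⁻¹) = k * (m⁻¹ * g * m) * k⁻¹ := by group
    rw [this]
    exact e2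
  have e4 : k * g * k⁻¹ ∈ LJ cs h T X {j} := by
    rw [← PJ_inf_PNJ R]
    exact ⟨e1, e3⟩
  have hT : T ≤ Subgroup.normalizer (RGD.Sup X (RootsJ cs h {j}) : Set Y) := R.T_le_normalizer fun x hx => hx.1
  have e5 : k * g * k⁻¹ ∈ ((LJ cs h T X {j} : Subgroup Y) : Set Y) := e4
  unfold LJ at e5
  rw [Subgroup.coe_mul_of_left_le_normalizer_right _ _ hT, Set.mem_mul] at e5
  obtain ⟨t, ht, u, hu, e⟩ := e5
  have hu' : ∀ y ∈ X a, u * y = y * u := by
    intro y hy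
    have h3 : RGD.Sup X (RootsJ cs h {j}) ≤ Subgroup.centralizer ({y} : Set Y) := by
      refine RGD.Sup_le fun x hx v hv => ?_
      rw [Subgroup.mem_centralizer_singleton_iff]
      exact N.comm x hx v hv y hy
    exact Subgroup.mem_centralizer_singleton_iff.1 (h3 hu)
  refine ⟨k⁻¹ * t * k, ?_, fun y hy => ?_⟩
  · have h3 : cj k⁻¹ T = T := mem_normalizer_iff_cj.1 hk.inv.mem_normalizer
    have h4 : k⁻¹ * t * k⁻¹⁻¹ ∈ cj k⁻¹ T := conj_mem_cj.2 ht
    rwa [h3, inv_inv] at h4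
  · have h3 := hu' _ (hXa _ (hFX y hy))
    have h4 := h1 y hy
    have h5 : k * g * k⁻¹ * (k * F y * k⁻¹) * (k * g * k⁻¹)⁻¹ = k * y * k⁻¹ := by
      calc k * g * k⁻¹ * (k * F y * k⁻¹) * (k * g * k⁻¹)⁻¹ = k * (g * F y * g⁻¹) * k⁻¹ := by group
        _ = _ := by rw [h4]
    rw [← e] at h5
    have h6 : t * (k * F y * k⁻¹) * t⁻¹ = k * y * k⁻¹ := by
      calc t * (k * F y * k⁻¹) * t⁻¹ = t * (k * F y * k⁻¹ * u) * u⁻¹ * t⁻¹ := by group
        _ = t * (u * (k * F y * k⁻¹)) * u⁻¹ * t⁻¹ := by rw [h3]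
        _ = t * u * (k * F y * k⁻¹) * (t * u)⁻¹ := by group
        _ = _ := h5
    calc k⁻¹ * t * k * F y * (k⁻¹ * t * k)⁻¹ = k⁻¹ * (t * (k * F y * k⁻¹) * t⁻¹) * k := by group
      _ = k⁻¹ * (k * y * k⁻¹) * k := by rw [h6]
      _ = y := by group

end

/-- **Good root elements.** -/
theorem Node.good [Finite W] [Finite Y] {R : RGD cs h 2 T n X} {S : Set (I → ℤ)} {a : I → ℤ} {i j : I} {w : W}
    (N : Node R S a i j w) (hI : IntComm cs h X) (hG : GG cs h T X = ⊤) {v : Y} (hv : v ∈ X (sr i)) (hv1 : v ≠ 1)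
    (hv2 : v * v = 1) (hv3 : (v * ((n i)⁻¹ * v * n i)) ^ 3 = 1)
    (hin : ∀ α : MulAut Y, α * α = 1 → (∀ z ∈ X (sr j), α z = z) → (∀ z ∈ X (-sr j), α z = z) →
      ∃ g, α = MulAut.conj g) : Good v := by
  obtain ⟨k, hk⟩ := exists_rp cs R.nsys w
  have hva : k * v * k⁻¹ ∈ X a := by
    have := R.conj_mem hk (isRoot_sr cs h i) hv
    rwa [N.hw] at this
  have hva1 : k * v * k⁻¹ ≠ 1 := by
    intro h1
    apply hv1
    have : v = k⁻¹ * (k * v * k⁻¹) * k := by group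
    rw [this, h1]; group
  have hjc : ∀ y ∈ X a, n j * y = y * n j := by
    intro y hy
    have h3 : X (sr j) ⊔ X (-sr j) ≤ Subgroup.centralizer ({y} : Set Y) := by
      refine sup_le ?_ ?_
      · intro v hv
        rw [Subgroup.mem_centralizer_singleton_iff]
        exact N.comm _ ⟨isRoot_sr cs h j, fun l hl => sr_ne fun e => hl (by rw [e]; rfl)⟩ v hv y hy
      · intro v hv
        rw [Subgroup.mem_centralizer_singleton_iff]
        exact N.comm _ ⟨(isRoot_sr cs h j).neg, fun l hl => by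
          rw [Pi.neg_apply, sr_ne fun e => hl (by rw [e]; rfl), neg_zero]⟩ v hv y hy
    exact Subgroup.mem_centralizer_singleton_iff.1 (h3 N.nj)
  have hn0 : Rp cs R.nsys (cs.simple j * (w * cs.simple i * w⁻¹)) (n j * (k * n i * k⁻¹)) :=
    (rp_simple cs R.nsys j).mul ((hk.mul (rp_simple cs R.nsys i)).mul hk.inv)
  have h1 : Good (k * v * k⁻¹) := by
    refine good_opp' R hG (J := {j}) hn0 ?_ ?_ ?_ (k := 3) (by decide) ?_ ?_ ?_ ?_
    · intro x hx h0
      rw [N.neg]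
      exact neg_nonpos.2 h0
    · intro x hx
      rw [N.neg]
      exact RootsJ.neg hx
    · calc k * v * k⁻¹ * (k * v * k⁻¹) = k * (v * v) * k⁻¹ := by group
        _ = 1 := by rw [hv2]; group
    · have h2 := hjc _ hva
      have h3 : (n j * (k * n i * k⁻¹))⁻¹ * (k * v * k⁻¹) * (n j * (k * n i * k⁻¹)) =
          k * ((n i)⁻¹ * v * n i) * k⁻¹ := by
        calc (n j * (k * n i * k⁻¹))⁻¹ * (k * v * k⁻¹) * (n j * (k * n i * k⁻¹))
            = (k * n i * k⁻¹)⁻¹ * (n j)⁻¹ * ((k * v * k⁻¹) * n j) * (k * n i * k⁻¹) := by group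
          _ = (k * n i * k⁻¹)⁻¹ * (n j)⁻¹ * (n j * (k * v * k⁻¹)) * (k * n i * k⁻¹) := by rw [h2]
          _ = _ := by group
      rw [h3]
      have h4 : k * v * k⁻¹ * (k * ((n i)⁻¹ * v * n i) * k⁻¹) = k * (v * ((n i)⁻¹ * v * n i)) * k⁻¹ := by group
      rw [h4, conj_pow, hv3]; group
    · intro g hg
      rw [← N.orth]
      refine mem_PJ_of_conj R hI hG N.dm hva hva1 ?_
      rw [hg, mul_inv_cancel_right]
      exact hva
    · intro x hx g hg
      exact N.comm x hx g hg _ hva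
    · intro α hα hc
      refine hin α hα (hc _ ⟨isRoot_sr cs h j, fun l hl => sr_ne fun e => hl (by rw [e]; rfl)⟩)
        (hc _ ⟨(isRoot_sr cs h j).neg, fun l hl => by
          rw [Pi.neg_apply, sr_ne fun e => hl (by rw [e]; rfl), neg_zero]⟩)
  have h2 := h1.conj k⁻¹
  have h3 : k⁻¹ * (k * v * k⁻¹) * k⁻¹⁻¹ = v := by group
  rwa [h3] at h2

end Cfsg.Agent.H282.SK.Dom
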