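import Cfsg.Agent.H737.SK.E6Core
import Cfsg.Agent.H297.SK.DichE6

/-!
# S3010, `²E₆(q)`, `q` even: explicit elements (helper282; (T5-B), (T5-D) of helper297)

`L0 K q` : `²E₆(q)` as a subgroup of the adjoint Chevalley group `E₆(q²)`.

* `exists_B` : `J = [0, 5]`, `q ≥ 4`: a torus element of `²E₆(q)` commuting with `e (± sr 0)`, `e (± sr 5)` and moved by
  the graph automorphism;
* `exists_D` : `J = [1, 0, 5]`, any `q`: a unipotent element of `²E₆(q)` commuting with `pr J nel`, `pr J hel`, `pr J xl`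
  and moved by the graph automorphism.
-/

set_option autoImplicit false
set_option linter.unusedSectionVars false

namespace Cfsg.Agent.H282.SK.TwE5

open CoxeterSystem Cfsg.Agent.ChevalleyStructure.CoxeterGeom Cfsg.Agent.Tits.Roots Cfsg.Agent.Tits.Core
  Cfsg.Agent.Tits.Exchange Cfsg.Agent.Nodes.Reps Cfsg.Agent.Nodes.BNOf Cfsg.Agent.Nodes.Coroot Cfsg.Agent.Nodes.Comb
  Cfsg.Agent.Nodes.OppDec
  Cfsg.Agent.KFacts.RgdField Cfsg.Agent.KFacts.RgdCent Cfsg.Agent.KFacts.ChevTwo Cfsg.Agent.KFacts.RgdSys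
  Cfsg.Agent.KFacts.ChevTwoInst Cfsg.Agent.H737.SK.O2 Cfsg.Agent.H282.SK Cfsg.Agent.H737.SK.Gen
  Cfsg.Agent.H737.SK.Chev Cfsg.Agent.KFacts.RgdRigid
open Cfsg.Lie Cfsg.Agent.ChevalleyStructure Cfsg.Agent.ChevalleyStructure.Elts
  Cfsg.Agent.ChevalleyStructure.RootVec Cfsg.Agent.ChevalleyStructure.FieldIso
  Cfsg.Agent.ChevalleyStructure.CoxeterGeomTypes
open Cfsg.Agent.Nodes Cfsg.Agent.Nodes.RGDChev
open Cfsg.Agent.H737.SK.E6 (A6)
open Cfsg.Agent.KFacts.RgdChevCoord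
open scoped commutatorElement

universe u

/-! ### Abstract part -/

section abs

variable {W Y K : Type*} [Group W] [Group Y] [Field K] {M : CoxeterMatrix (Fin 6)}
variable {cs : CoxeterSystem M W} {h : IsCartan M A6} {e : (Fin 6 → ℤ) → K → Y}
  {T : Subgroup Y} {n : Fin 6 → Y} {X : (Fin 6 → ℤ) → Subgroup Y}

/-- the roots -/
def r1 : Fin 6 → ℤ := ![0, 0, 0, 1, 1, 1]
def r1' : Fin 6 → ℤ := ![0, 1, 0, 1, 1, 0]
def r2 : Fin 6 → ℤ := ![1, 0, 1, 1, 0, 0]
def r2' : Fin 6 → ℤ := ![0, 1, 1, 1, 0, 0]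
def m1 : Fin 6 → ℤ := ![0, 1, 1, 2, 1, 1]
def m2 : Fin 6 → ℤ := ![1, 1, 1, 2, 1, 0]

theorem w_r1 : [3, 2, 4].foldr (step A6) (sr 5) = r1 := by decide +kernel
theorem w_r2 : [3, 2, 4].foldr (step A6) (sr 0) = r2 := by decide +kernel
theorem w_r1' : [1, 3].foldr (step A6) (sr 4) = r1' := by decide +kernel
theorem w_r2' : [1, 3].foldr (step A6) (sr 2) = r2' := by decide +kernel
theorem w_m1 : [3, 2, 4, 1, 3, 2, 4].foldr (step A6) (sr 5) = m1 := by decide +kernel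
theorem w_m2 : [3, 2, 4, 1, 3, 2, 4].foldr (step A6) (sr 0) = m2 := by decide +kernel

theorem i_r1 : IsRoot cs h r1 := isRoot_word w_r1
theorem i_r2 : IsRoot cs h r2 := isRoot_word w_r2
theorem i_r1' : IsRoot cs h r1' := isRoot_word w_r1'
theorem i_r2' : IsRoot cs h r2' := isRoot_word w_r2'
theorem i_m1 : IsRoot cs h m1 := isRoot_word w_m1
theorem i_m2 : IsRoot cs h m2 := isRoot_word w_m2

variable [Finite W] {R : RGD cs h 2 T n X} (S : Sys R e)

include S

theorem mul_of_neg {x y z : Fin 6 → ℤ} (hx : IsRoot cs h x) (hy : IsRoot cs h y) (h1 : cpr cs h x y = -1)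
    (h2 : cpr cs h y x = -1) (hz : x + y = z) (a b : K) : e x a * e y b = e z (a * b) * (e y b * e x a) := by
  have h3 := S.data.comm1 x y hx hy h1 h2 a b
  rw [hz, commutatorElement_def] at h3
  rw [← h3]; group

theorem comm_of_zero {x y : Fin 6 → ℤ} (hx : IsRoot cs h x) (hy : IsRoot cs h y) (h1 : 0 ≤ cpr cs h x y) (a b : K) :
    Commute (e x a) (e y b) := S.data.comm_of_nonneg hx hy h1 a b

theorem dbl {x : Fin 6 → ℤ} (hx : IsRoot cs h x) (a : K) : e x a * e x a = 1 := by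
  rw [← S.data.add x hx, S.data.two]
  exact S.data.zero hx

/-- the rank two computation -/
theorem comm_pair {x y s t z : Fin 6 → ℤ} (hx : IsRoot cs h x) (hy : IsRoot cs h y) (hs : IsRoot cs h s)
    (ht : IsRoot cs h t) (hz : IsRoot cs h z) (xs : cpr cs h x s = -1) (sx : cpr cs h s x = -1)
    (yt : cpr cs h y t = -1) (ty : cpr cs h t y = -1) (exs : x + s = z) (eyt : y + t = z)
    (ys : 0 ≤ cpr cs h y s) (xt : 0 ≤ cpr cs h x t) (xz : 0 ≤ cpr cs h x z) (sz : 0 ≤ cpr cs h s z)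
    (u b : K) : Commute (e x u * e y u) (e s b * e t b) := by
  have c1 := mul_of_neg S hx hs xs sx exs u b
  have c2 := mul_of_neg S hy ht yt ty eyt u b
  have c3 := (comm_of_zero S hy hs ys u b).eq
  have c4 := (comm_of_zero S hx ht xt u b).eq
  have c5 := (comm_of_zero S hx hz xz u (u * b)).eq
  have c6 := (comm_of_zero S hs hz sz b (u * b)).eq
  have c7 := dbl S hz (u * b)
  show e x u * e y u * (e s b * e t b) = e s b * e t b * (e x u * e y u)
  calc e x u * e y u * (e s b * e t b) = e x u * (e y u * e s b) * e t b := by group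
    _ = e x u * e s b * (e y u * e t b) := by rw [c3]; group
    _ = (e x u * e s b) * (e z (u * b) * (e t b * e y u)) := by rw [c2]
    _ = (e z (u * b) * (e s b * e x u)) * (e z (u * b) * (e t b * e y u)) := by rw [c1]
    _ = e z (u * b) * e s b * (e x u * e z (u * b)) * e t b * e y u := by group
    _ = e z (u * b) * (e s b * e z (u * b)) * (e x u * e t b) * e y u := by rw [c5]; group
    _ = (e z (u * b) * e z (u * b)) * e s b * (e t b * e x u) * e y u := by rw [c6, c4]; group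
    _ = e s b * e t b * (e x u * e y u) := by rw [c7]; group

/-- what we need of a pair of roots for `J` -/
structure PairJ (cs : CoxeterSystem M W) (h : IsCartan M A6) (J : List (Fin 6)) (b b' : Fin 6 → ℤ) : Prop where
  root : IsRoot cs h b
  root' : IsRoot cs h b'
  zero : cpr cs h b b' = 0
  w : rep cs h (cs.wordProd J) b = b'
  w' : rep cs h (cs.wordProd J) b' = b
  s : (J.map fun j => cpr cs h b (sr j)).sum = 0
  s' : (J.map fun j => cpr cs h b' (sr j)).sum = 0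

omit S in
theorem orth_D : Orth cs h [(1 : Fin 6), 0, 5] := by
  refine ⟨by decide, ?_⟩
  have key : ∀ i ∈ [(1 : Fin 6), 0, 5], ∀ j ∈ [(1 : Fin 6), 0, 5], i ≠ j → pairing A6 j (sr i) = 0 := by
    decide +kernel
  intro i hi j hj hij
  rw [cpr_sr]
  exact key i hi j hj hij

theorem PairJ.c_nel {J : List (Fin 6)} {b b' : Fin 6 → ℤ} (P : PairJ cs h J b b') (u : K) :
    Commute (e b u * e b' u) (pr J fun j => nel e (sr j)) := by
  have hcm := comm_of_zero S P.root P.root' (le_of_eq P.zero.symm) u u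
  have h1 := word_act S J P.root u
  have h2 := word_act S J P.root' u
  rw [P.w] at h1
  rw [P.w'] at h2
  have h3 : pr J (fun j => nel e (sr j)) * (e b u * e b' u) * (pr J fun j => nel e (sr j))⁻¹ =
      e b u * e b' u := by
    calc pr J (fun j => nel e (sr j)) * (e b u * e b' u) * (pr J fun j => nel e (sr j))⁻¹
        = (pr J (fun j => nel e (sr j)) * e b u * (pr J fun j => nel e (sr j))⁻¹) *
          (pr J (fun j => nel e (sr j)) * e b' u * (pr J fun j => nel e (sr j))⁻¹) := by group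
      _ = e b u * e b' u := by rw [h1, h2, hcm.eq]
  exact (mul_inv_eq_iff_eq_mul.1 h3).symm

theorem PairJ.c_hel {J : List (Fin 6)} {b b' : Fin 6 → ℤ} (P : PairJ cs h J b b') (u : K) {c : K} (hc : c ≠ 0) :
    Commute (e b u * e b' u) (pr J fun j => hel e (sr j) c) := by
  have h1 := tJ_act S P.root hc J u
  have h2 := tJ_act S P.root' hc J u
  rw [P.s, zpow_zero, one_mul] at h1
  rw [P.s', zpow_zero, one_mul] at h2
  have h3 : pr J (fun j => hel e (sr j) c) * (e b u * e b' u) * (pr J fun j => hel e (sr j) c)⁻¹ =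
      e b u * e b' u := by
    calc pr J (fun j => hel e (sr j) c) * (e b u * e b' u) * (pr J fun j => hel e (sr j) c)⁻¹
        = (pr J (fun j => hel e (sr j) c) * e b u * (pr J fun j => hel e (sr j) c)⁻¹) *
          (pr J (fun j => hel e (sr j) c) * e b' u * (pr J fun j => hel e (sr j) c)⁻¹) := by group
      _ = e b u * e b' u := by rw [h1, h2]
  exact (mul_inv_eq_iff_eq_mul.1 h3).symm

/-- `xl`-products from `nel`-products and root elements -/
theorem comm_xl {J : List (Fin 6)} (hJ : Orth cs h J) {y : Y} (h1 : Commute y (pr J fun j => nel e (sr j)))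
    (h2 : Commute y (pr J fun j => e (sr j) 1)) : Commute y (pr J (xl e)) := by
  have e1 : pr J (xl e) = pr J (fun j => e (sr j) 1) * pr J (fun j => e (-sr j) 1) := by
    rw [pr_mul hJ.nodup (commL S hJ (fun j _ => e_mem S j _) (fun j _ => e_neg_mem S j _))]
    rfl
  have e2 : pr J (fun j => e (-sr j) 1) = pr J (fun j => nel e (sr j)) * pr J (fun j => e (sr j) 1) *
      (pr J (fun j => nel e (sr j)))⁻¹ := by
    rw [pr_conj hJ.nodup (commL S hJ (fun j _ => nel_mem S j) (fun j _ => e_mem S j _))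
      (commL S hJ (fun j _ => nel_mem S j) (fun j _ => nel_mem S j))]
    refine pr_congr fun j _ => ?_
    rw [S.data.refl j _ (isRoot_sr cs h j), rep_simple_sr]
  rw [e1, e2]
  exact h2.mul_right ((h1.mul_right h2).mul_right h1.inv_right)

omit S in
theorem pJ_r1 : PairJ cs h [1, 0, 5] r1 r1' where
  root := i_r1
  root' := i_r1'
  zero := cpr_word w_r1' (by decide +kernel)
  w := by rw [rep_word]; decide +kernel
  w' := by rw [rep_word]; decide +kernel
  s := by simp only [cpr_sr]; decide +kernel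
  s' := by simp only [cpr_sr]; decide +kernel

omit S in
theorem pJ_r2 : PairJ cs h [1, 0, 5] r2 r2' where
  root := i_r2
  root' := i_r2'
  zero := cpr_word w_r2' (by decide +kernel)
  w := by rw [rep_word]; decide +kernel
  w' := by rw [rep_word]; decide +kernel
  s := by simp only [cpr_sr]; decide +kernel
  s' := by simp only [cpr_sr]; decide +kernel

omit S in
theorem pJ_m : PairJ cs h [1, 0, 5] m1 m2 where
  root := i_m1
  root' := i_m2
  zero := cpr_word w_m2 (by decide +kernel)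
  w := by rw [rep_word]; decide +kernel
  w' := by rw [rep_word]; decide +kernel
  s := by simp only [cpr_sr]; decide +kernel
  s' := by simp only [cpr_sr]; decide +kernel

omit S in
theorem w_0 : ([] : List (Fin 6)).foldr (step A6) (sr 0) = sr 0 := rfl
omit S in
theorem w_1 : ([] : List (Fin 6)).foldr (step A6) (sr 1) = sr 1 := rfl
omit S in
theorem w_5 : ([] : List (Fin 6)).foldr (step A6) (sr 5) = sr 5 := rfl

theorem e_r1 (u b : K) : Commute (e r1 u * e r1' u) (pr [(1 : Fin 6), 0, 5] fun j => e (sr j) b) := by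
  have wz : ([1, 3, 4] : List (Fin 6)).foldr (step A6) (sr 5) = ![0, 1, 0, 1, 1, 1] := by decide +kernel
  have iz : IsRoot cs h ![0, 1, 0, 1, 1, 1] := isRoot_word wz
  have h1 : Commute (e r1 u * e r1' u) (e (sr 1) b * e (sr 5) b) := by
    refine comm_pair S i_r1 i_r1' (isRoot_sr cs h 1) (isRoot_sr cs h 5) iz ?_ (cpr_word w_r1 (by decide +kernel)) ?_
      (cpr_word w_r1' (by decide +kernel)) (by decide +kernel) (by decide +kernel) ?_ ?_ ?_ ?_ u b
    · rw [cpr_sr]; decide +kernel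
    · rw [cpr_sr]; decide +kernel
    · rw [cpr_sr]; decide +kernel
    · rw [cpr_sr]; decide +kernel
    · exact le_of_le_of_eq (by decide) (cpr_word wz (c := 1) (by decide +kernel)).symm
    · exact le_of_le_of_eq (by decide) (cpr_word wz (c := 1) (by decide +kernel)).symm
  have h2 : Commute (e r1 u * e r1' u) (e (sr 0) b) := by
    refine (comm_of_zero S i_r1 (isRoot_sr cs h 0) ?_ u b).mul_left (comm_of_zero S i_r1' (isRoot_sr cs h 0) ?_ u b)
    · rw [cpr_sr]; decide +kernel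
    · rw [cpr_sr]; decide +kernel
  have h3 : Commute (e (sr 1) b) (e (sr 0) b) :=
    comm_of_zero S (isRoot_sr cs h 1) (isRoot_sr cs h 0) (by rw [cpr_sr]; decide +kernel) b b
  have h4 : (pr [(1 : Fin 6), 0, 5] fun j => e (sr j) b) = e (sr 0) b * (e (sr 1) b * e (sr 5) b) := by
    rw [pr_cons, pr_cons, pr_cons, pr_nil, mul_one, ← mul_assoc, h3.eq, mul_assoc]
  rw [h4]
  exact h2.mul_right h1

theorem e_r2 (u b : K) : Commute (e r2 u * e r2' u) (pr [(1 : Fin 6), 0, 5] fun j => e (sr j) b) := by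
  have wz : ([1, 3, 2] : List (Fin 6)).foldr (step A6) (sr 0) = ![1, 1, 1, 1, 0, 0] := by decide +kernel
  have iz : IsRoot cs h ![1, 1, 1, 1, 0, 0] := isRoot_word wz
  have h1 : Commute (e r2 u * e r2' u) (e (sr 1) b * e (sr 0) b) := by
    refine comm_pair S i_r2 i_r2' (isRoot_sr cs h 1) (isRoot_sr cs h 0) iz ?_ (cpr_word w_r2 (by decide +kernel)) ?_
      (cpr_word w_r2' (by decide +kernel)) (by decide +kernel) (by decide +kernel) ?_ ?_ ?_ ?_ u b
    · rw [cpr_sr]; decide +kernel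
    · rw [cpr_sr]; decide +kernel
    · rw [cpr_sr]; decide +kernel
    · rw [cpr_sr]; decide +kernel
    · exact le_of_le_of_eq (by decide) (cpr_word wz (c := 1) (by decide +kernel)).symm
    · exact le_of_le_of_eq (by decide) (cpr_word wz (c := 1) (by decide +kernel)).symm
  have h2 : Commute (e r2 u * e r2' u) (e (sr 5) b) := by
    refine (comm_of_zero S i_r2 (isRoot_sr cs h 5) ?_ u b).mul_left (comm_of_zero S i_r2' (isRoot_sr cs h 5) ?_ u b)
    · rw [cpr_sr]; decide +kernel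
    · rw [cpr_sr]; decide +kernel
  have h4 : (pr [(1 : Fin 6), 0, 5] fun j => e (sr j) b) = (e (sr 1) b * e (sr 0) b) * e (sr 5) b := by
    rw [pr_cons, pr_cons, pr_cons, pr_nil, mul_one, ← mul_assoc]
  rw [h4]
  exact h1.mul_right h2

theorem e_m (u b : K) : Commute (e m1 u * e m2 u) (pr [(1 : Fin 6), 0, 5] fun j => e (sr j) b) := by
  have wz : ([0, 3, 2, 4, 1, 3, 2, 4] : List (Fin 6)).foldr (step A6) (sr 5) = ![1, 1, 1, 2, 1, 1] := by
    decide +kernel
  have iz : IsRoot cs h ![1, 1, 1, 2, 1, 1] := isRoot_word wz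
  have h1 : Commute (e m1 u * e m2 u) (e (sr 0) b * e (sr 5) b) := by
    refine comm_pair S i_m1 i_m2 (isRoot_sr cs h 0) (isRoot_sr cs h 5) iz ?_ (cpr_word w_m1 (by decide +kernel)) ?_
      (cpr_word w_m2 (by decide +kernel)) (by decide +kernel) (by decide +kernel) ?_ ?_ ?_ ?_ u b
    · rw [cpr_sr]; decide +kernel
    · rw [cpr_sr]; decide +kernel
    · rw [cpr_sr]; decide +kernel
    · rw [cpr_sr]; decide +kernel
    · exact le_of_le_of_eq (by decide) (cpr_word wz (c := 1) (by decide +kernel)).symm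
    · exact le_of_le_of_eq (by decide) (cpr_word wz (c := 1) (by decide +kernel)).symm
  have h2 : Commute (e m1 u * e m2 u) (e (sr 1) b) := by
    refine (comm_of_zero S i_m1 (isRoot_sr cs h 1) ?_ u b).mul_left (comm_of_zero S i_m2 (isRoot_sr cs h 1) ?_ u b)
    · rw [cpr_sr]; decide +kernel
    · rw [cpr_sr]; decide +kernel
  have h4 : (pr [(1 : Fin 6), 0, 5] fun j => e (sr j) b) = e (sr 1) b * (e (sr 0) b * e (sr 5) b) := by
    rw [pr_cons, pr_cons, pr_cons, pr_nil, mul_one]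
  rw [h4]
  exact h2.mul_right h1

/-- the element, as a product of three fixed elements -/
def zD (e : (Fin 6 → ℤ) → K → Y) (v v' w w' : K) : Y :=
  (e r1 v * e r2 v') * (e r1' v * e r2' v') * (e m1 w * e m2 w')

/-- the element as a product of pairs -/
theorem zD_eq {v v' w w' : K} (hw : v' * v + w' = w) :
    zD e v v' w w' = (e r1 v * e r1' v) * (e r2 v' * e r2' v') * (e m1 w * e m2 w) := by
  have c1 : e r2 v' * e r1' v = e m2 (v' * v) * (e r1' v * e r2 v') :=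
    mul_of_neg S i_r2 i_r1' (cpr_word w_r1' (by decide +kernel)) (cpr_word w_r2 (by decide +kernel))
      (by decide +kernel) v' v
  have c2 : ∀ a b, Commute (e r1 a) (e m2 b) := fun a b => comm_of_zero S i_r1 i_m2
    (le_of_le_of_eq (by decide) (cpr_word w_m2 (c := 0) (by decide +kernel)).symm) a b
  have c3 : ∀ a b, Commute (e r1' a) (e m2 b) := fun a b => comm_of_zero S i_r1' i_m2
    (le_of_le_of_eq (by decide) (cpr_word w_m2 (c := 1) (by decide +kernel)).symm) a b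
  have c4 : ∀ a b, Commute (e r2 a) (e m2 b) := fun a b => comm_of_zero S i_r2 i_m2
    (le_of_le_of_eq (by decide) (cpr_word w_m2 (c := 1) (by decide +kernel)).symm) a b
  have c5 : ∀ a b, Commute (e r2' a) (e m2 b) := fun a b => comm_of_zero S i_r2' i_m2
    (le_of_le_of_eq (by decide) (cpr_word w_m2 (c := 0) (by decide +kernel)).symm) a b
  have c6 : ∀ a b, Commute (e m1 a) (e m2 b) := fun a b => comm_of_zero S i_m1 i_m2
    (le_of_le_of_eq (by decide) (cpr_word w_m2 (c := 0) (by decide +kernel)).symm) a b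
  have c7 : Commute (e m2 (v' * v)) ((e r1' v * e r2 v') * e r2' v' * e m1 w) :=
    ((((c3 _ _).symm.mul_right (c4 _ _).symm).mul_right (c5 _ _).symm).mul_right (c6 _ _).symm)
  unfold zD
  calc (e r1 v * e r2 v') * (e r1' v * e r2' v') * (e m1 w * e m2 w')
      = e r1 v * (e r2 v' * e r1' v) * e r2' v' * e m1 w * e m2 w' := by group
    _ = e r1 v * (e m2 (v' * v) * ((e r1' v * e r2 v') * e r2' v' * e m1 w)) * e m2 w' := by rw [c1]; group
    _ = e r1 v * (((e r1' v * e r2 v') * e r2' v' * e m1 w) * e m2 (v' * v)) * e m2 w' := by rw [c7.eq]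
    _ = (e r1 v * e r1' v) * (e r2 v' * e r2' v') * (e m1 w * (e m2 (v' * v) * e m2 w')) := by group
    _ = _ := by rw [← S.data.add m2 i_m2, hw]

theorem zD_nel {v v' w w' : K} (hw : v' * v + w' = w) :
    Commute (zD e v v' w w') (pr [(1 : Fin 6), 0, 5] fun j => nel e (sr j)) := by
  rw [zD_eq S hw]
  exact ((pJ_r1.c_nel S v).mul_left (pJ_r2.c_nel S v')).mul_left (pJ_m.c_nel S w)

theorem zD_hel {v v' w w' : K} (hw : v' * v + w' = w) {c : K} (hc : c ≠ 0) :
    Commute (zD e v v' w w') (pr [(1 : Fin 6), 0, 5] fun j => hel e (sr j) c) := by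
  rw [zD_eq S hw]
  exact ((pJ_r1.c_hel S v hc).mul_left (pJ_r2.c_hel S v' hc)).mul_left (pJ_m.c_hel S w hc)

theorem zD_xl {v v' w w' : K} (hw : v' * v + w' = w) :
    Commute (zD e v v' w w') (pr [(1 : Fin 6), 0, 5] (xl e)) := by
  refine comm_xl S orth_D (zD_nel S hw) ?_
  rw [zD_eq S hw]
  exact ((e_r1 S v 1).mul_left (e_r2 S v' 1)).mul_left (e_m S w 1)

/-- a negative root element is not in `U` -/
theorem eq_zero_of_neg {x : Fin 6 → ℤ} (hx : IsRoot cs h x) (h0 : x ≤ 0) {a : K}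
    (hy : e x a ∈ RGD.Sup X (RGD.Pos cs h)) : a = 0 := by
  have h2 : e x a ∈ UN cs h X := RGD.le_Sup (S := Neg cs h) (X := X) ⟨hx, h0⟩ (S.mem hx a)
  exact S.data.inj x hx a (eq_one_of_mem_UN_of_mem_B R h2 (RGD.U_le_B hy))

theorem mem_U {x : Fin 6 → ℤ} (hx : IsRoot cs h x) (h0 : 0 ≤ x) (a : K) : e x a ∈ RGD.Sup X (RGD.Pos cs h) :=
  RGD.le_Sup (S := RGD.Pos cs h) (X := X) ⟨hx, h0⟩ (S.mem hx a)

/-- the graph automorphism moves the element -/
theorem zD_ne {γ : MulAut Y} (hγ : Gra cs h e γ ![5, 1, 4, 3, 2, 0]) {v v' w w' : K} (hv : v ≠ v') :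
    γ (zD e v v' w w') ≠ zD e v v' w w' := by
  have g1 : ∀ a, γ (e r1 a) = e r2 a := fun a => by rw [hγ.map _ i_r1]; congr 1; decide
  have g2 : ∀ a, γ (e r2 a) = e r1 a := fun a => by rw [hγ.map _ i_r2]; congr 1; decide
  have g1' : ∀ a, γ (e r1' a) = e r2' a := fun a => by rw [hγ.map _ i_r1']; congr 1; decide
  have g2' : ∀ a, γ (e r2' a) = e r1' a := fun a => by rw [hγ.map _ i_r2']; congr 1; decide
  have gm1 : ∀ a, γ (e m1 a) = e m2 a := fun a => by rw [hγ.map _ i_m1]; congr 1; decide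
  have gm2 : ∀ a, γ (e m2 a) = e m1 a := fun a => by rw [hγ.map _ i_m2]; congr 1; decide
  intro h0
  unfold zD at h0
  simp only [map_mul, g1, g2, g1', g2', gm1, gm2] at h0
  have c : Commute (e r2 v) (e r1 v') := comm_of_zero S i_r2 i_r1
    (le_of_le_of_eq (by decide) (cpr_word w_r1 (c := 0) (by decide +kernel)).symm) v v'
  have k1 : ∀ k, ([3, 4, 5] : List (Fin 6)).foldr (step A6) r1 k ≤ 0 := by decide +kernel
  have k2 : ∀ k, 0 ≤ ([3, 4, 5] : List (Fin 6)).foldr (step A6) r2 k := by decide +kernel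
  have k3 : ∀ k, 0 ≤ ([3, 4, 5] : List (Fin 6)).foldr (step A6) r1' k := by decide +kernel
  have k4 : ∀ k, 0 ≤ ([3, 4, 5] : List (Fin 6)).foldr (step A6) r2' k := by decide +kernel
  have k5 : ∀ k, 0 ≤ ([3, 4, 5] : List (Fin 6)).foldr (step A6) m1 k := by decide +kernel
  have k6 : ∀ k, 0 ≤ ([3, 4, 5] : List (Fin 6)).foldr (step A6) m2 k := by decide +kernel
  obtain ⟨g, hg⟩ : ∃ g, g = pr [3, 4, 5] fun j => nel e (sr j) := ⟨_, rfl⟩
  have act : ∀ {x : Fin 6 → ℤ}, IsRoot cs h x → ∀ a, g * e x a * g⁻¹ = e (rep cs h (cs.wordProd [3, 4, 5]) x) a := by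
    intro x hx a
    rw [hg]
    exact word_act S [3, 4, 5] hx a
  have pos : ∀ {x : Fin 6 → ℤ}, IsRoot cs h x → (∀ k, 0 ≤ ([3, 4, 5] : List (Fin 6)).foldr (step A6) x k) → ∀ a,
      g * e x a * g⁻¹ ∈ RGD.Sup X (RGD.Pos cs h) := by
    intro x hx hp a
    rw [act hx]
    exact mem_U S (hx.act _) (by rw [rep_word]; exact hp) a
  have h1 : e r1 (v + v') = e r2 v * (e r2' v * e r1' v') * (e m2 w * e m1 w') *
      (e r2 v' * (e r1' v * e r2' v') * (e m1 w * e m2 w'))⁻¹ := by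
    have h2 : e r1 v' * (e r2 v * (e r2' v * e r1' v') * (e m2 w * e m1 w')) =
        e r1 v * (e r2 v' * (e r1' v * e r2' v') * (e m1 w * e m2 w')) := by
      calc e r1 v' * (e r2 v * (e r2' v * e r1' v') * (e m2 w * e m1 w'))
          = (e r1 v' * e r2 v) * (e r2' v * e r1' v') * (e m2 w * e m1 w') := by group
        _ = e r2 v * e r1 v' * (e r2' v * e r1' v') * (e m2 w * e m1 w') := by rw [← c.eq]
        _ = _ := h0
        _ = _ := by group
    have h3 : e r1 v' * e r1 v' = 1 := dbl S i_r1 v'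
    rw [eq_mul_inv_iff_mul_eq, add_comm, S.data.add r1 i_r1]
    calc e r1 v' * e r1 v * (e r2 v' * (e r1' v * e r2' v') * (e m1 w * e m2 w'))
        = e r1 v' * (e r1 v * (e r2 v' * (e r1' v * e r2' v') * (e m1 w * e m2 w'))) := by group
      _ = e r1 v' * e r1 v' * (e r2 v * (e r2' v * e r1' v') * (e m2 w * e m1 w')) := by rw [← h2]; group
      _ = _ := by rw [h3, one_mul]
  have h2 : g * e r1 (v + v') * g⁻¹ ∈ RGD.Sup X (RGD.Pos cs h) := by
    rw [h1]
    have e1 : g * (e r2 v * (e r2' v * e r1' v') * (e m2 w * e m1 w') *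
      (e r2 v' * (e r1' v * e r2' v') * (e m1 w * e m2 w'))⁻¹) * g⁻¹ =
      (g * e r2 v * g⁻¹) * ((g * e r2' v * g⁻¹) * (g * e r1' v' * g⁻¹)) * ((g * e m2 w * g⁻¹) * (g * e m1 w' * g⁻¹)) *
      ((g * e r2 v' * g⁻¹) * ((g * e r1' v * g⁻¹) * (g * e r2' v' * g⁻¹)) *
        ((g * e m1 w * g⁻¹) * (g * e m2 w' * g⁻¹)))⁻¹ := by group
    rw [e1]
    refine mul_mem (mul_mem (mul_mem (pos i_r2 k2 _) (mul_mem (pos i_r2' k4 _) (pos i_r1' k3 _)))
      (mul_mem (pos i_m2 k6 _) (pos i_m1 k5 _))) (inv_mem (mul_mem (mul_mem (pos i_r2 k2 _)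
      (mul_mem (pos i_r1' k3 _) (pos i_r2' k4 _))) (mul_mem (pos i_m1 k5 _) (pos i_m2 k6 _))))
  rw [act i_r1] at h2
  have h3 := eq_zero_of_neg S (i_r1.act _) (by rw [rep_word]; exact k1) h2
  apply hv
  have h4 := S.data.two v'
  calc v = v + v' - v' := by ring
    _ = 0 - v' := by rw [h3]
    _ = v' := by rw [zero_sub]; exact neg_eq_of_add_eq_zero_right h4

/-! ### membership -/

variable {L : Subgroup Y} {q : ℕ}

/-- membership of the folded root elements -/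
structure Fold (e : (Fin 6 → ℤ) → K → Y) (L : Subgroup Y) (q : ℕ) : Prop where
  p05 : ∀ u, e (sr 0) u * e (sr 5) (u ^ q) ∈ L
  m05 : ∀ u, e (-sr 0) u * e (-sr 5) (u ^ q) ∈ L
  p24 : ∀ u, e (sr 2) u * e (sr 4) (u ^ q) ∈ L
  m24 : ∀ u, e (-sr 2) u * e (-sr 4) (u ^ q) ∈ L
  p1 : ∀ u, u ^ q = u → e (sr 1) u ∈ L
  m1 : ∀ u, u ^ q = u → e (-sr 1) u ∈ L
  p3 : ∀ u, u ^ q = u → e (sr 3) u ∈ L
  m3 : ∀ u, u ^ q = u → e (-sr 3) u ∈ L

variable (hL : Fold e L q)

omit S [Finite W] in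
theorem nc_pair {i j : Fin 6} (hc : ∀ a b, Commute (e (sr i) a) (e (sr j) b)) (hc1 : ∀ a b, Commute (e (-sr i) a) (e (sr j) b))
    (hc2 : ∀ a b, Commute (e (sr i) a) (e (-sr j) b))
    (hp : ∀ u, e (sr i) u * e (sr j) (u ^ q) ∈ L) (hm : ∀ u, e (-sr i) u * e (-sr j) (u ^ q) ∈ L) (b : K) :
    nc e (sr i) b * nc e (sr j) (b ^ q) ∈ L := by
  have h1 : nc e (sr i) b * nc e (sr j) (b ^ q) = (e (sr i) b * e (sr j) (b ^ q)) *
      (e (-sr i) b⁻¹ * e (-sr j) (b⁻¹ ^ q)) * (e (sr i) b * e (sr j) (b ^ q)) := by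
    rw [nc_def, nc_def, inv_pow]
    calc e (sr i) b * e (-sr i) b⁻¹ * e (sr i) b * (e (sr j) (b ^ q) * e (-sr j) (b ^ q)⁻¹ * e (sr j) (b ^ q))
        = e (sr i) b * e (-sr i) b⁻¹ * (e (sr i) b * e (sr j) (b ^ q)) * e (-sr j) (b ^ q)⁻¹ * e (sr j) (b ^ q) := by
          group
      _ = e (sr i) b * (e (-sr i) b⁻¹ * e (sr j) (b ^ q)) * (e (sr i) b * e (-sr j) (b ^ q)⁻¹) * e (sr j) (b ^ q) := by
          rw [(hc b (b ^ q)).eq]; group
      _ = e (sr i) b * (e (sr j) (b ^ q) * e (-sr i) b⁻¹) * (e (-sr j) (b ^ q)⁻¹ * e (sr i) b) * e (sr j) (b ^ q) := by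
          rw [(hc1 _ _).eq, (hc2 _ _).eq]
      _ = _ := by group
  rw [h1]
  exact mul_mem (mul_mem (hp b) (hm _)) (hp b)

theorem comm4 {i j : Fin 6} (hij : pairing A6 j (sr i) = 0) :
    (∀ a b, Commute (e (sr i) a) (e (sr j) b)) ∧ (∀ a b, Commute (e (-sr i) a) (e (sr j) b)) ∧
    (∀ a b, Commute (e (sr i) a) (e (-sr j) b)) ∧ (∀ a b, Commute (e (-sr i) a) (e (-sr j) b)) := by
  have ri := isRoot_sr cs h i
  have rj := isRoot_sr cs h j
  have h0 : cpr cs h (sr i) (sr j) = 0 := by rw [cpr_sr, hij]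
  refine ⟨fun a b => comm_of_zero S ri rj (by rw [h0]) a b, fun a b => comm_of_zero S ri.neg rj ?_ a b,
    fun a b => comm_of_zero S ri rj.neg ?_ a b, fun a b => comm_of_zero S ri.neg rj.neg ?_ a b⟩
  · rw [cpr_neg cs h _ rj, h0, neg_zero]
  · rw [cpr_neg_right cs h _ rj, h0, neg_zero]
  · rw [cpr_neg_right cs h _ rj, cpr_neg cs h _ rj, h0, neg_zero, neg_zero]

include hL

theorem nc05 (b : K) : nc e (sr 0) b * nc e (sr 5) (b ^ q) ∈ L := by
  obtain ⟨h1, h2, h3, -⟩ := comm4 (i := 0) (j := 5) S (by decide +kernel)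
  exact nc_pair h1 h2 h3 hL.p05 hL.m05 b

theorem nc24 (b : K) : nc e (sr 2) b * nc e (sr 4) (b ^ q) ∈ L := by
  obtain ⟨h1, h2, h3, -⟩ := comm4 (i := 2) (j := 4) S (by decide +kernel)
  exact nc_pair h1 h2 h3 hL.p24 hL.m24 b

theorem n24 : nel e (sr 2) * nel e (sr 4) ∈ L := by
  have := nc24 S hL 1
  rwa [one_pow] at this

omit S [Finite W] in
theorem n1 : nel e (sr 1) ∈ L := by
  rw [nel_def]
  exact mul_mem (mul_mem (hL.p1 1 (one_pow q)) (hL.m1 1 (one_pow q))) (hL.p1 1 (one_pow q))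

omit S [Finite W] in
theorem n3 : nel e (sr 3) ∈ L := by
  rw [nel_def]
  exact mul_mem (mul_mem (hL.p3 1 (one_pow q)) (hL.m3 1 (one_pow q))) (hL.p3 1 (one_pow q))

theorem n05 : nel e (sr 0) * nel e (sr 5) ∈ L := by
  have := nc05 S hL 1
  rwa [one_pow] at this

theorem conj_pair {ω : List (Fin 6)} (hω : pr ω (fun j => nel e (sr j)) ∈ L) {x y x' y' : Fin 6 → ℤ}
    (hx : IsRoot cs h x) (hy : IsRoot cs h y) (hx' : ω.foldr (step A6) x = x') (hy' : ω.foldr (step A6) y = y')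
    {a b : K} (hxy : e x a * e y b ∈ L) : e x' a * e y' b ∈ L := by
  have h1 := word_act S ω hx a
  have h2 := word_act S ω hy b
  rw [rep_word, hx'] at h1
  rw [rep_word, hy'] at h2
  rw [← h1, ← h2]
  have : pr ω (fun j => nel e (sr j)) * e x a * (pr ω fun j => nel e (sr j))⁻¹ *
      (pr ω (fun j => nel e (sr j)) * e y b * (pr ω fun j => nel e (sr j))⁻¹) =
      pr ω (fun j => nel e (sr j)) * (e x a * e y b) * (pr ω fun j => nel e (sr j))⁻¹ := by group
  rw [this]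
  exact mul_mem (mul_mem hω hxy) (inv_mem hω)

theorem q05 {u : K} (hu : (u ^ q) ^ q = u) : e (sr 5) u * e (sr 0) (u ^ q) ∈ L := by
  have h1 := hL.p05 (u ^ q)
  rw [hu] at h1
  obtain ⟨h2, -⟩ := comm4 (i := 0) (j := 5) S (by decide +kernel)
  rwa [(h2 _ _).eq] at h1

theorem q24 {u : K} (hu : (u ^ q) ^ q = u) : e (sr 4) u * e (sr 2) (u ^ q) ∈ L := by
  have h1 := hL.p24 (u ^ q)
  rw [hu] at h1
  obtain ⟨h2, -⟩ := comm4 (i := 2) (j := 4) S (by decide +kernel)
  rwa [(h2 _ _).eq] at h1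

theorem p324 : (pr [3, 2, 4] fun j => nel e (sr j)) ∈ L := by
  rw [pr_cons, pr_cons, pr_cons, pr_nil, mul_one]
  exact mul_mem (n3 hL) (n24 S hL)

omit S [Finite W] in
theorem p13 : (pr [1, 3] fun j => nel e (sr j)) ∈ L := by
  rw [pr_cons, pr_cons, pr_nil, mul_one]
  exact mul_mem (n1 hL) (n3 hL)

theorem p7 : (pr [3, 2, 4, 1, 3, 2, 4] fun j => nel e (sr j)) ∈ L := by
  simp only [pr_cons, pr_nil, mul_one]
  have e1 : nel e (sr 3) * (nel e (sr 2) * (nel e (sr 4) * (nel e (sr 1) * (nel e (sr 3) * (nel e (sr 2) *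
      nel e (sr 4)))))) = nel e (sr 3) * (nel e (sr 2) * nel e (sr 4)) * (nel e (sr 1) * (nel e (sr 3) *
      (nel e (sr 2) * nel e (sr 4)))) := by group
  rw [e1]
  exact mul_mem (mul_mem (n3 hL) (n24 S hL)) (mul_mem (n1 hL) (mul_mem (n3 hL) (n24 S hL)))

theorem zD_mem (hq : ∀ u : K, (u ^ q) ^ q = u) (v w : K) : zD e v (v ^ q) w (w ^ q) ∈ L := by
  unfold zD
  refine mul_mem (mul_mem ?_ ?_) ?_
  · exact conj_pair S hL (p324 S hL) (isRoot_sr cs h 5) (isRoot_sr cs h 0) w_r1 w_r2 (q05 S hL (hq v))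
  · exact conj_pair S hL (p13 hL) (isRoot_sr cs h 4) (isRoot_sr cs h 2) w_r1' w_r2' (q24 S hL (hq v))
  · exact conj_pair S hL (p7 S hL) (isRoot_sr cs h 5) (isRoot_sr cs h 0) w_m1 w_m2 (q05 S hL (hq w))

end abs

/-! ### The torus element for `J = [0, 5]` -/

section tor

variable {W Y K : Type*} [Group W] [Group Y] [Field K] {M : CoxeterMatrix (Fin 6)}
variable {cs : CoxeterSystem M W} {h : IsCartan M A6} {e : (Fin 6 → ℤ) → K → Y}
  {T : Subgroup Y} {n : Fin 6 → Y} {X : (Fin 6 → ℤ) → Subgroup Y}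
variable [Finite W] {R : RGD cs h 2 T n X} (S : Sys R e) {L : Subgroup Y} {q : ℕ}

theorem orth_B : Orth cs h [(0 : Fin 6), 5] := by
  refine ⟨by decide, ?_⟩
  have key : ∀ i ∈ [(0 : Fin 6), 5], ∀ j ∈ [(0 : Fin 6), 5], i ≠ j → pairing A6 j (sr i) = 0 := by
    decide +kernel
  intro i hi j hj hij
  rw [cpr_sr]
  exact key i hi j hj hij

theorem orth_B' : Orth cs h [(2 : Fin 6), 4] := by
  refine ⟨by decide, ?_⟩
  have key : ∀ i ∈ [(2 : Fin 6), 4], ∀ j ∈ [(2 : Fin 6), 4], i ≠ j → pairing A6 j (sr i) = 0 := by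
    decide +kernel
  intro i hi j hj hij
  rw [cpr_sr]
  exact key i hi j hj hij

/-- the torus element -/
def zB (e : (Fin 6 → ℤ) → K → Y) (q : ℕ) (b : K) : Y :=
  (hel e (sr 0) b * hel e (sr 5) (b ^ q)) * (hel e (sr 2) (b ^ 2) * hel e (sr 4) ((b ^ 2) ^ q))

include S

theorem zB_mem (hL : Fold e L q) (b : K) : zB e q b ∈ L := by
  refine mul_mem ?_ ?_
  · have c : Commute (nel e (sr 0)) (nc e (sr 5) (b ^ q)) :=
      SS_comm S orth_B (by decide) (by decide) (by decide) (nel_mem S 0) (nc_mem S 5 _)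
    have e1 : hel e (sr 0) b * hel e (sr 5) (b ^ q) = (nc e (sr 0) b * nc e (sr 5) (b ^ q)) *
        (nel e (sr 0) * nel e (sr 5)) := by
      rw [hel_def, hel_def]
      calc nc e (sr 0) b * nel e (sr 0) * (nc e (sr 5) (b ^ q) * nel e (sr 5))
          = nc e (sr 0) b * (nel e (sr 0) * nc e (sr 5) (b ^ q)) * nel e (sr 5) := by group
        _ = _ := by rw [c.eq]; group
    rw [e1]
    exact mul_mem (nc05 S hL b) (n05 S hL)
  · have c : Commute (nel e (sr 2)) (nc e (sr 4) ((b ^ 2) ^ q)) :=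
      SS_comm S orth_B' (by decide) (by decide) (by decide) (nel_mem S 2) (nc_mem S 4 _)
    have e1 : hel e (sr 2) (b ^ 2) * hel e (sr 4) ((b ^ 2) ^ q) = (nc e (sr 2) (b ^ 2) * nc e (sr 4) ((b ^ 2) ^ q)) *
        (nel e (sr 2) * nel e (sr 4)) := by
      rw [hel_def, hel_def]
      calc nc e (sr 2) (b ^ 2) * nel e (sr 2) * (nc e (sr 4) ((b ^ 2) ^ q) * nel e (sr 4))
          = nc e (sr 2) (b ^ 2) * (nel e (sr 2) * nc e (sr 4) ((b ^ 2) ^ q)) * nel e (sr 4) := by group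
        _ = _ := by rw [c.eq]; group
    rw [e1]
    exact mul_mem (nc24 S hL (b ^ 2)) (n24 S hL)

/-- the action on the root elements -/
theorem zB_act {b : K} (hb : b ≠ 0) {x : Fin 6 → ℤ} (hx : IsRoot cs h x) (a : K) :
    zB e q b * e x a * (zB e q b)⁻¹ = e x (b ^ cpr cs h x (sr 0) * ((b ^ q) ^ cpr cs h x (sr 5) *
      ((b ^ 2) ^ cpr cs h x (sr 2) * (((b ^ 2) ^ q) ^ cpr cs h x (sr 4) * a)))) := by
  have h0 : b ^ q ≠ 0 := pow_ne_zero _ hb
  have h2 : b ^ 2 ≠ 0 := pow_ne_zero _ hb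
  have h3 : (b ^ 2) ^ q ≠ 0 := pow_ne_zero _ h2
  have e1 : zB e q b * e x a * (zB e q b)⁻¹ = hel e (sr 0) b * (hel e (sr 5) (b ^ q) * (hel e (sr 2) (b ^ 2) *
      (hel e (sr 4) ((b ^ 2) ^ q) * e x a * (hel e (sr 4) ((b ^ 2) ^ q))⁻¹) * (hel e (sr 2) (b ^ 2))⁻¹) *
      (hel e (sr 5) (b ^ q))⁻¹) * (hel e (sr 0) b)⁻¹ := by
    unfold zB; group
  rw [e1, S.data.hel_conj hx (isRoot_sr cs h 4) h3, S.data.hel_conj hx (isRoot_sr cs h 2) h2,
    S.data.hel_conj hx (isRoot_sr cs h 5) h0, S.data.hel_conj hx (isRoot_sr cs h 0) hb]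

theorem zB_comm {b : K} (hb : b ≠ 0) {x : Fin 6 → ℤ} (hx : IsRoot cs h x) {c0 c5 c2 c4 : ℤ}
    (h0 : cpr cs h x (sr 0) = c0) (h5 : cpr cs h x (sr 5) = c5) (h2 : cpr cs h x (sr 2) = c2)
    (h4 : cpr cs h x (sr 4) = c4) (e1 : c0 + 2 * c2 = 0) (e2 : c5 + 2 * c4 = 0) (a : K) :
    Commute (zB e q b) (e x a) := by
  have h := zB_act (q := q) S hb hx a
  have k1 : (b ^ c0 * ((b ^ q) ^ c5 * ((b ^ 2) ^ c2 * (((b ^ 2) ^ q) ^ c4 * a)))) = a := by
    have e3 : b ^ c0 * (b ^ 2) ^ c2 = 1 := by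
      rw [← zpow_natCast b 2, ← zpow_mul, ← zpow_add₀ hb]
      rw [show c0 + ((2 : ℕ) : ℤ) * c2 = 0 by push_cast; exact e1, zpow_zero]
    have e4 : (b ^ q) ^ c5 * ((b ^ 2) ^ q) ^ c4 = 1 := by
      rw [← zpow_natCast b 2, ← zpow_natCast b q, ← zpow_natCast (b ^ ((2 : ℕ) : ℤ)) q, ← zpow_mul, ← zpow_mul,
        ← zpow_mul, ← zpow_add₀ hb]
      rw [show (q : ℤ) * c5 + ((2 : ℕ) : ℤ) * ((q : ℤ) * c4) = 0 by push_cast; linear_combination (q : ℤ) * e2, zpow_zero]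
    calc (b ^ c0 * ((b ^ q) ^ c5 * ((b ^ 2) ^ c2 * (((b ^ 2) ^ q) ^ c4 * a))))
        = (b ^ c0 * (b ^ 2) ^ c2) * ((b ^ q) ^ c5 * ((b ^ 2) ^ q) ^ c4) * a := by ring
      _ = a := by rw [e3, e4, one_mul, one_mul]
  rw [h0, h5, h2, h4, k1] at h
  exact mul_inv_eq_iff_eq_mul.1 h

/-- `zB` commutes with the rank one groups of `sr 0` and `sr 5` -/
theorem zB_SS {b : K} (hb : b ≠ 0) {j : Fin 6} (hj : j ∈ [(0 : Fin 6), 5]) {y : Y} (hy : y ∈ SS X j) :
    Commute (zB e q b) y := by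
  have key : ∀ (s : Fin 6 → ℤ), IsRoot cs h s → (∀ a, Commute (zB e q b) (e s a)) →
      X s ≤ Subgroup.centralizer {zB e q b} := by
    intro s hs hc v hv
    obtain ⟨a, rfl⟩ := (S.mem_X s hs v).1 hv
    rw [Subgroup.mem_centralizer_singleton_iff]
    exact (hc a).symm.eq
  have hle : SS X j ≤ Subgroup.centralizer {zB e q b} := by
    have hr := isRoot_sr cs h j
    refine sup_le (key _ hr fun a => ?_) (key _ hr.neg fun a => ?_)
    · simp only [List.mem_cons, List.not_mem_nil, or_false] at hj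
      rcases hj with rfl | rfl
      · refine zB_comm (c0 := 2) (c5 := 0) (c2 := -1) (c4 := 0) S hb hr ?_ ?_ ?_ ?_ (by norm_num) (by norm_num) a <;>
          rw [cpr_sr] <;> decide +kernel
      · refine zB_comm (c0 := 0) (c5 := 2) (c2 := 0) (c4 := -1) S hb hr ?_ ?_ ?_ ?_ (by norm_num) (by norm_num) a <;>
          rw [cpr_sr] <;> decide +kernel
    · simp only [List.mem_cons, List.not_mem_nil, or_false] at hj
      rcases hj with rfl | rfl
      · refine zB_comm (c0 := -2) (c5 := 0) (c2 := 1) (c4 := 0) S hb hr.neg ?_ ?_ ?_ ?_ (by norm_num) (by norm_num) a <;>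
          rw [cpr_sr] <;> decide +kernel
      · refine zB_comm (c0 := 0) (c5 := -2) (c2 := 0) (c4 := 1) S hb hr.neg ?_ ?_ ?_ ?_ (by norm_num) (by norm_num) a <;>
          rw [cpr_sr] <;> decide +kernel
  exact (Subgroup.mem_centralizer_singleton_iff.1 (hle hy)).symm

theorem zB_pr {b : K} (hb : b ≠ 0) {f : Fin 6 → Y} (hf : ∀ j, f j ∈ SS X j) :
    Commute (zB e q b) (pr [(0 : Fin 6), 5] f) :=
  commute_pr fun j hj => zB_SS S hb hj (hf j)

/-- the graph automorphism moves `zB` -/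
theorem zB_ne {γ : MulAut Y} (hγ : Gra cs h e γ ![5, 1, 4, 3, 2, 0]) {b : K} (hb : b ≠ 0)
    (hbq : (b ^ q) ^ 3 ≠ b ^ 3) : γ (zB e q b) ≠ zB e q b := by
  intro h0
  have hr2 := isRoot_sr cs h 2
  have hr4 := isRoot_sr cs h 4
  have g4 : ∀ a, γ (e (sr 4) a) = e (sr 2) a := fun a => by
    rw [hγ.map _ hr4, sr_comp hγ.invol]; rfl
  have a2 := zB_act (q := q) S hb hr2 1
  have a4 := zB_act (q := q) S hb hr4 1
  have c20 : cpr cs h (sr 2) (sr 0) = -1 := by rw [cpr_sr]; decide +kernel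
  have c25 : cpr cs h (sr 2) (sr 5) = 0 := by rw [cpr_sr]; decide +kernel
  have c22 : cpr cs h (sr 2) (sr 2) = 2 := by rw [cpr_sr]; decide +kernel
  have c24 : cpr cs h (sr 2) (sr 4) = 0 := by rw [cpr_sr]; decide +kernel
  have c40 : cpr cs h (sr 4) (sr 0) = 0 := by rw [cpr_sr]; decide +kernel
  have c45 : cpr cs h (sr 4) (sr 5) = -1 := by rw [cpr_sr]; decide +kernel
  have c42 : cpr cs h (sr 4) (sr 2) = 0 := by rw [cpr_sr]; decide +kernel
  have c44 : cpr cs h (sr 4) (sr 4) = 2 := by rw [cpr_sr]; decide +kernel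
  rw [c20, c25, c22, c24] at a2
  rw [c40, c45, c42, c44] at a4
  have a4' := congrArg γ a4
  rw [map_mul, map_mul, map_inv, h0, g4, g4, a2] at a4'
  have h1 := S.data.injective hr2 a4'
  simp only [zpow_zero, one_mul, mul_one] at h1
  have e1 : b ^ (-1 : ℤ) * (b ^ 2) ^ (2 : ℤ) = b ^ 3 := by
    rw [zpow_neg_one]
    have : (b ^ 2) ^ (2 : ℤ) = (b ^ 2) ^ 2 := by norm_cast
    rw [this]
    field_simp
  have e2 : (b ^ q) ^ (-1 : ℤ) * ((b ^ 2) ^ q) ^ (2 : ℤ) = (b ^ q) ^ 3 := by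
    have h2 : (b ^ 2) ^ q = (b ^ q) ^ 2 := by rw [← pow_mul, ← pow_mul, mul_comm]
    have h3 : b ^ q ≠ 0 := pow_ne_zero _ hb
    rw [h2, zpow_neg_one]
    have : ((b ^ q) ^ 2) ^ (2 : ℤ) = ((b ^ q) ^ 2) ^ 2 := by norm_cast
    rw [this]
    field_simp
  rw [e1, e2] at h1
  exact hbq h1.symm

end tor

/-! ### The concrete groups -/

section conc

variable {K : Type u} [Field K]

/-- `²E₆(q)` in the adjoint Chevalley group -/
abbrev L0 (K : Type u) [Field K] (q : ℕ) : Subgroup ↥(chevE6.group K) := (twistedE6 K q).subgroupOf (chevE6.group K)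

open Cfsg.Agent.H297.SK.DichE6 (hp gra_E6)

theorem fold_L0 (q : ℕ) : Fold (eg hp K) (L0 K q) q where
  p05 u := by
    rw [Subgroup.mem_subgroupOf, Subgroup.coe_mul, coe_eg, coe_eg, ev_sr hp, ev_sr hp]
    exact TwE6Basic.pair_mem (rs := (56, 36)) u (by simp)
  m05 u := by
    rw [Subgroup.mem_subgroupOf, Subgroup.coe_mul, coe_eg, coe_eg, ev_neg_sr hp, ev_neg_sr hp]
    exact TwE6Basic.pair_mem (rs := (15, 35)) u (by simp)
  p24 u := by
    rw [Subgroup.mem_subgroupOf, Subgroup.coe_mul, coe_eg, coe_eg, ev_sr hp, ev_sr hp]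
    exact TwE6Basic.pair_mem (rs := (42, 37)) u (by simp)
  m24 u := by
    rw [Subgroup.mem_subgroupOf, Subgroup.coe_mul, coe_eg, coe_eg, ev_neg_sr hp, ev_neg_sr hp]
    exact TwE6Basic.pair_mem (rs := (29, 34)) u (by simp)
  p1 u hu := by
    rw [Subgroup.mem_subgroupOf, coe_eg, ev_sr hp]
    exact TwE6Basic.single_mem (r := 46) hu (by simp)
  m1 u hu := by
    rw [Subgroup.mem_subgroupOf, coe_eg, ev_neg_sr hp]
    exact TwE6Basic.single_mem (r := 25) hu (by simp)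
  p3 u hu := by
    rw [Subgroup.mem_subgroupOf, coe_eg, ev_sr hp]
    exact TwE6Basic.single_mem (r := 39) hu (by simp)
  m3 u hu := by
    rw [Subgroup.mem_subgroupOf, coe_eg, ev_neg_sr hp]
    exact TwE6Basic.single_mem (r := 32) hu (by simp)

variable [Fintype K] [CharP K 2] {q : ℕ}

theorem exists_gen (hK : Fintype.card K = q ^ 2) : ∃ b : K, b ≠ 0 ∧ ∀ m, b ^ m = 1 → q ^ 2 - 1 ∣ m := by
  obtain ⟨g, hg⟩ := IsCyclic.exists_generator (α := Kˣ)
  refine ⟨g, g.ne_zero, fun m hm => ?_⟩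
  have h1 : g ^ m = 1 := Units.ext (by rw [Units.val_pow_eq_pow_val, hm]; rfl)
  have h2 := orderOf_dvd_of_pow_eq_one h1
  rw [orderOf_eq_card_of_forall_mem_zpowers hg, Nat.card_units, Nat.card_eq_fintype_card, hK] at h2
  exact h2

theorem exists_v (hq : 2 ≤ q) (hK : Fintype.card K = q ^ 2) : ∃ v w : K, v ≠ v ^ q ∧ v ^ q * v + w ^ q = w := by
  obtain ⟨v, hv0, hv⟩ := exists_gen hK
  have hvq : v ≠ v ^ q := by
    intro h1
    have h2 : v ^ (q - 1) = 1 := by
      have h3 : v * v ^ (q - 1) = v * 1 := by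
        rw [← pow_succ', Nat.sub_add_cancel (by omega), mul_one, ← h1]
      exact mul_left_cancel₀ hv0 h3
    have h4 := Nat.le_of_dvd (by omega) (hv _ h2)
    have h5 : q ^ 2 - 1 = (q - 1) * (q + 1) := by
      obtain ⟨k, rfl⟩ := Nat.exists_eq_add_of_le hq
      have : 2 + k - 1 = k + 1 := by omega
      rw [this]
      have : (2 + k) ^ 2 = (k + 1) * (2 + k + 1) + 1 := by ring
      rw [this]; omega
    rw [h5] at h4
    have : (q - 1) * 1 < (q - 1) * (q + 1) := Nat.mul_lt_mul_of_pos_left (by omega) (by omega)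
    omega
  have hqq : ∀ x : K, (x ^ q) ^ q = x := fun x => by
    rw [← pow_mul, ← sq, ← hK, FiniteField.pow_card]
  -- `q` is a power of two, so `x ↦ x ^ q` is additive
  obtain ⟨f, hf⟩ : ∃ f : ℕ, q = 2 ^ f := by
    have h1 : IsPrimePow q := by
      obtain ⟨m, hm1, hm2⟩ := FiniteField.card K 2
      rw [hK] at hm2
      exact (isPrimePow_pow_iff two_ne_zero).1 ⟨2, m, Nat.prime_two.prime, m.2, hm2.symm⟩
    obtain ⟨r, k, hr, hk, e⟩ := h1
    have hr' := hr.nat_prime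
    refine ⟨k, ?_⟩
    obtain ⟨m, hm1, hm2⟩ := FiniteField.card K 2
    have h2 : r ∣ 2 ^ (m : ℕ) := by
      rw [← hm2, hK, ← e, ← pow_mul]
      exact dvd_pow_self r (by omega)
    have h3 := (Nat.prime_dvd_prime_iff_eq hr' Nat.prime_two).1 (hr'.dvd_of_dvd_pow h2)
    rw [← e, h3]
  have hadd : ∀ x y : K, (x + y) ^ q = x ^ q + y ^ q := fun x y => by
    rw [hf]; exact add_pow_char_pow x y 2 f
  have ht : v + v ^ q ≠ 0 := by
    intro h1
    exact hvq (by rw [← CharTwo.add_eq_zero, h1])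
  have htq : (v + v ^ q) ^ q = v + v ^ q := by
    rw [hadd, hqq, add_comm]
  refine ⟨v, v ^ q * v * v / (v + v ^ q), hvq, ?_⟩
  have h1 : (v ^ q * v * v / (v + v ^ q)) ^ q = v * v ^ q * v ^ q / (v + v ^ q) := by
    rw [div_pow, mul_pow, mul_pow, hqq, htq]
  rw [h1]
  have h2 : v * v ^ q * v ^ q / (v + v ^ q) + v ^ q * v * v / (v + v ^ q) = v ^ q * v := by
    rw [← add_div, div_eq_iff ht]; ring
  have h3 : v ^ q * v + v * v ^ q * v ^ q / (v + v ^ q) = v ^ q * v - v * v ^ q * v ^ q / (v + v ^ q) := by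
    rw [sub_eq_add_neg, CharTwo.neg_eq]
  rw [h3]
  linear_combination -h2

/-- **(T5-D)**: `J = [1, 0, 5]` -/
theorem exists_D (hq : 2 ≤ q) (hK : Fintype.card K = q ^ 2) : ∃ z ∈ L0 K q,
    Commute z (pr [(1 : Fin 6), 0, 5] fun j => nel (eg hp K) (sr j)) ∧
    (∀ c : K, c ≠ 0 → Commute z (pr [(1 : Fin 6), 0, 5] fun j => hel (eg hp K) (sr j) c)) ∧
    Commute z (pr [(1 : Fin 6), 0, 5] (xl (eg hp K))) ∧ H129.TwE6Fr.gam K z ≠ z := by
  obtain ⟨cs, -⟩ : ∃ cs : CoxeterSystem CoxeterMatrix.E₆ CoxeterMatrix.E₆.Group, cs = CoxeterMatrix.E₆.toCoxeterSystem :=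
    ⟨_, rfl⟩
  have hW := finite_W hp cs
  have S := sys (K := K) hp twoOK_E6 cs
  have hqq : ∀ x : K, (x ^ q) ^ q = x := fun x => by
    rw [← pow_mul, ← sq, ← hK, FiniteField.pow_card]
  obtain ⟨v, w, hv, hw⟩ := exists_v hq hK
  exact ⟨zD (eg hp K) v (v ^ q) w (w ^ q), zD_mem S (fold_L0 q) hqq v w, zD_nel S hw, fun c hc => zD_hel S hw hc,
    zD_xl S hw, zD_ne S (gra_E6 cs) hv⟩

/-- **(T5-B)**: `J = [0, 5]`, `q ≥ 4` -/
theorem exists_B (hq : 4 ≤ q) (hK : Fintype.card K = q ^ 2) : ∃ z ∈ L0 K q,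
    (∀ f : Fin 6 → ↥(chevE6.group K), (∀ j, f j ∈ SS (XX chevE6 6 K) j) → Commute z (pr [(0 : Fin 6), 5] f)) ∧
    Commute z (pr [(0 : Fin 6), 5] fun j => nel (eg hp K) (sr j)) ∧
    (∀ c : K, c ≠ 0 → Commute z (pr [(0 : Fin 6), 5] fun j => hel (eg hp K) (sr j) c)) ∧
    Commute z (pr [(0 : Fin 6), 5] (xl (eg hp K))) ∧ H129.TwE6Fr.gam K z ≠ z := by
  obtain ⟨cs, -⟩ : ∃ cs : CoxeterSystem CoxeterMatrix.E₆ CoxeterMatrix.E₆.Group, cs = CoxeterMatrix.E₆.toCoxeterSystem :=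
    ⟨_, rfl⟩
  have hW := finite_W hp cs
  have S := sys (K := K) hp twoOK_E6 cs
  obtain ⟨b, hb, hb1⟩ := exists_gen hK
  have h3 : (b ^ q) ^ 3 ≠ b ^ 3 := by
    intro h1
    have h2 : b ^ (3 * (q - 1)) = 1 := by
      have h4 : b ^ 3 * b ^ (3 * (q - 1)) = b ^ 3 * 1 := by
        rw [← pow_add, mul_one, ← h1, ← pow_mul]
        congr 1
        omega
      exact mul_left_cancel₀ (pow_ne_zero _ hb) h4
    have h4 := Nat.le_of_dvd (by omega) (hb1 _ h2)
    have h5 : q ^ 2 - 1 = (q + 1) * (q - 1) := by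
      obtain ⟨k, rfl⟩ := Nat.exists_eq_add_of_le hq
      have : 4 + k - 1 = k + 3 := by omega
      rw [this]
      have : (4 + k) ^ 2 = (4 + k + 1) * (k + 3) + 1 := by ring
      rw [this]; omega
    rw [h5] at h4
    have h6 : 3 * (q - 1) < (q + 1) * (q - 1) := Nat.mul_lt_mul_of_pos_right (by omega) (by omega)
    omega
  exact ⟨zB (eg hp K) q b, zB_mem S (fold_L0 q) b, fun f hf => zB_pr S hb hf, zB_pr S hb fun j => nel_mem S j,
    fun c _ => zB_pr S hb fun j => hel_memS S j c, zB_pr S hb fun j => xl_mem S j, zB_ne S (gra_E6 cs) hb h3⟩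

end conc

end Cfsg.Agent.H282.SK.TwE5
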